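import Cfsg.Agent.Chevalley.Elements

/-!
Tabulated data of one step of a chain of abelian radicals: the radical roots, the roots of the Levi
factor acting on them, and decidable checks on the action.
-/

set_option autoImplicit false

namespace CfsgLib.E6Deg

open Cfsg.Lie

/-- One step. -/
structure Step where
  /-- the roots of the radical, increasing -/
  S : List ℕ
  /-- the roots of the Levi factor -/
  lev : List ℕ
  /-- the nodes of the Levi factor -/
  nodes : List ℕ
  /-- the roots of the group normalising the range -/
  prev : List ℕ
  /-- a word in `nodes` sending the radical root with the given index to the highest one -/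
  words : List (List ℕ)
  /-- a root pairing to one with the highest radical root -/
  gam : ℕ
  /-- a root of the Levi factor -/
  beta : ℕ
  /-- nodes of `prev` -/
  pnodes : List ℕ
  /-- a word in `pnodes` sending the highest radical root to `beta` -/
  bword : List ℕ
  /-- witnesses for the triviality of the character of the stabiliser -/
  wit : List (Bool × ℕ × ℕ)

variable (D : ChevalleyDatum) (st : Step)

/-- The coordinates. -/
abbrev Step.Co : Type := Fin st.S.length

/-- The root of a coordinate. -/
def Step.root (r : st.Co) : ℕ := st.S.get r

/-- The matrix of the nilpotent action of `x_β` on the radical. -/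
def Step.nCoef (β : ℕ) (k r : st.Co) : ℤ :=
  match D.commTerms (st.root r) β with
  | [(x, C, 1, 1)] => if x = st.root k then -C else 0
  | _ => 0

/-- The root moving coordinate `s` onto coordinate `r`. -/
def Step.bet (s r : st.Co) : Option ℕ := st.lev.find? fun β => decide (st.nCoef D β s r ≠ 0)

/-- Neighbours. -/
def Step.nbr (s r : st.Co) : Bool := (st.bet D s r).isSome

/-- Lower neighbours. -/
def Step.low (s : st.Co) : List st.Co := (List.finRange _).filter fun r => decide (r < s) && st.nbr D s r

/-- A root mover is fixing a coordinate vector. -/
def Step.fixes (β : ℕ) (s : st.Co) : Bool :=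
  (List.finRange _).all fun r => decide (st.nCoef D β s r = 0)

/-- Image of a root under a word. -/
def wimg (w : List ℕ) (s : ℕ) : ℕ := w.foldr (fun i x => D.reflectRoot i x) s

/-- Check: shape. -/
def chkShape : Bool :=
  (st.S.all fun r => decide (r < D.nroots)) && (st.lev.all fun r => decide (r < D.nroots)) &&
  (st.lev.all fun r => st.prev.contains r) && (st.S.all fun r => st.prev.contains r) &&
  ((List.finRange _).all fun r => (List.finRange _).all fun r' =>
    decide (r = r') || (decide (st.root r' ≠ st.root r) && decide (st.root r' ≠ D.neg (st.root r)) &&
      (D.commTerms (st.root r) (st.root r')).isEmpty))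

/-- Check: the Levi roots normalise the radical. -/
def chkNormal : Bool :=
  st.lev.all fun β => (List.finRange _).all fun (r : st.Co) =>
    decide (β ≠ st.root r) && decide (β ≠ D.neg (st.root r)) &&
    match D.commTerms (st.root r) β with
    | [] => true
    | [(x, C, 1, 1)] => st.S.contains x && decide (C = 1 ∨ C = -1) && (D.commTerms x β).isEmpty
    | _ => false

/-- Check: clearing the neighbours of the highest coordinate. -/
def chkClear (top : st.Co) : Bool :=
  (!st.nbr D top top) &&
  (List.finRange _).all fun (r : st.Co) => match st.bet D top r with
    | none => true
    | some β => (List.finRange _).all fun (k : st.Co) => (List.finRange _).all fun (r' : st.Co) =>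
      decide (st.nCoef D β k r' = 0) ||
        (decide (r' ≠ top) && (!st.nbr D top r' || (decide (k = top) && decide (r' = r))))

/-- Check: two root moves of a remaining coordinate. -/
def chkPsi (top : st.Co) : Bool :=
  (List.finRange _).all fun (u : st.Co) => decide (u = top) || st.nbr D top u ||
    st.lev.any fun b1 => (List.finRange _).any fun (v : st.Co) =>
      decide (st.nCoef D b1 u v ≠ 0) && (!decide (v = top)) &&
      st.lev.any fun b2 => (List.finRange _).any fun (w : st.Co) =>
        decide (st.nCoef D b2 u w ≠ 0) && decide (v ≠ w) && (!decide (w = top)) &&
        (List.finRange _).all fun (k : st.Co) => (List.finRange _).all fun (r' : st.Co) =>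
          (decide (st.nCoef D b1 k r' = 0) ||
            (decide (r' ≠ top) && decide (r' ≠ u) && (!st.nbr D top r' || st.nbr D top k) &&
              (decide (r' ≠ v) || decide (k = u)))) &&
          (decide (st.nCoef D b2 k r' = 0) ||
            (decide (r' ≠ top) && decide (r' ≠ v) && (!st.nbr D top r' || st.nbr D top k) &&
              (decide (r' ≠ w) || decide (k = u))))

/-- Check: the words. -/
def chkWords (top : st.Co) : Bool :=
  (List.finRange _).all fun (s : st.Co) =>
    let w := st.words.getD s []
    (w.all fun i => st.nodes.contains i) &&
    decide (wimg D w (st.root s) = st.root top) &&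
    ((List.finRange _).all fun (r : st.Co) => st.S.contains (wimg D w (st.root r))) &&
    (List.finRange _).all fun (r : st.Co) => (List.finRange _).all fun (r' : st.Co) =>
      decide (wimg D w (st.root r) ≠ st.root r') || (!st.nbr D top r') || st.nbr D s r

/-- Check: nodes are usable. -/
def chkNodes : Bool :=
  ((st.nodes ++ st.pnodes).all fun i => decide (i < D.rank) && st.prev.contains (D.simple i) &&
    st.prev.contains (D.neg (D.simple i)))

/-- Check: lowering from each coordinate. -/
def chkLow : Bool :=
  (List.finRange _).all fun (s : st.Co) => (List.finRange _).all fun (r : st.Co) =>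
    decide (¬ r < s) || match st.bet D s r with
    | none => true
    | some β => (List.finRange _).all fun (k : st.Co) => (List.finRange _).all fun (r' : st.Co) =>
      decide (st.nCoef D β k r' = 0) ||
        (decide (r' < k) && ((!(decide (r' < s) && st.nbr D s r') || decide (s < k)) ||
          (decide (k = s) && decide (r' = r))))

/-- Check: the torus scales the highest coordinate. -/
def chkGam (top : st.Co) : Bool :=
  decide (st.gam < D.nroots) &&
    decide (D.pairing st.gam (st.root top) = 1 ∨ D.pairing st.gam (st.root top) = -1)

/-- Check: the root `beta`. -/
def chkBeta (top : st.Co) : Bool :=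
  st.lev.contains st.beta && (st.bword.all fun i => st.pnodes.contains i) &&
  decide (wimg D st.bword (st.root top) = st.beta) &&
  ((List.finRange _).all fun (s : st.Co) => (st.low D s).all fun r =>
    match st.bet D s r with
    | none => true
    | some β => decide (β = st.beta) || (decide (β ≠ D.neg st.beta) &&
        (D.commTerms st.beta β).isEmpty))

/-- Check: the witnesses for the characters of stabilisers; `split` asks for commutators only. -/
def chkWit (split : Bool) : Bool :=
  (List.finRange _).all fun (s : st.Co) => (!st.fixes D st.beta s) ||
    let e := st.wit.getD s (false, 0, 0)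
    if e.1 then
      st.lev.contains e.2.1 && st.lev.contains e.2.2 && st.fixes D e.2.1 s && st.fixes D e.2.2 s &&
      decide (e.2.2 ≠ e.2.1) && decide (e.2.2 ≠ D.neg e.2.1) &&
      match D.commTerms e.2.1 e.2.2 with
      | [(x, C, 1, 1)] => decide (x = st.beta) && decide (C = 1 ∨ C = -1)
      | _ => false
    else (!split) && decide (e.2.1 < D.nroots) && decide (D.pairing e.2.1 (st.root s) = 0) &&
      decide (D.pairing e.2.1 st.beta = 1 ∨ D.pairing e.2.1 st.beta = -1)

/-- The number of radical roots not fixed by `beta`, weighted by their cells. -/
def Step.movedList : List st.Co := (List.finRange _).filter fun s => !st.fixes D st.beta s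

/-- The number of neighbours of the highest coordinate. -/
def Step.n1 (top : st.Co) : ℕ := ((List.finRange _).filter fun r => st.nbr D top r).length

/-- All checks of a step which do not involve `beta`. -/
structure Ok (top : st.Co) : Prop where
  shape : chkShape D st = true
  normal : chkNormal D st = true
  clr : chkClear D st top = true
  psi : chkPsi D st top = true
  words : chkWords D st top = true
  nodes : chkNodes D st = true
  low : chkLow D st = true
  gam : chkGam D st top = true

end CfsgLib.E6Deg
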