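import Cfsg.Agent.E6Deg.Proj
import Cfsg.Agent.E6Deg.Step
import Cfsg.Agent.Chevalley.Borel
import Cfsg.Agent.Chevalley.HighRoot
import Cfsg.Agent.Chevalley.Bruhat

/-!
The action of root elements, torus elements and Weyl words on the radical of one step.
-/

set_option autoImplicit false
set_option linter.unusedSectionVars false

open scoped Classical

noncomputable section

namespace CfsgLib.E6Deg

open Matrix Cfsg.Lie CfsgLib.Chevalley

variable {D : ChevalleyDatum} (S : Sys D) {F : Type*} [Field F] {k : ℕ}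

theorem xG_mem' (r : ℕ) (t : F) : S.xG F r t ∈ D.group F := by
  by_cases h : r < D.nroots
  · exact S.xG_mem F h t
  · rw [show S.xG F r t = 1 from Units.ext (by rw [S.xG_val, x_out h, Units.val_one])]
    exact one_mem _

/-- A root element of the group. -/
def gx (r : ℕ) (t : F) : ↥(D.group F) := ⟨S.xG F r t, xG_mem' S r t⟩

theorem gx_add (r : ℕ) (t u : F) : gx S r t * gx S r u = gx S r (t + u) :=
  Subtype.ext (S.xG_add F r t u)

theorem gx_zero (r : ℕ) : gx S r (0 : F) = 1 := Subtype.ext (S.xG_zero F r)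

/-- The root homomorphism into the group. -/
def gxHom (r : ℕ) : Multiplicative F →* ↥(D.group F) where
  toFun t := gx S r (Multiplicative.toAdd t)
  map_one' := gx_zero S r
  map_mul' t u := (gx_add S r _ _).symm

include S in
theorem tor_mem (c : ℕ → Fˣ) : tor D F c ∈ D.group F :=
  S.diagonal_le_group F (by rw [S.diagonal_eq]; exact ⟨c, rfl⟩)

/-- A torus element of the group. -/
def gt (c : ℕ → Fˣ) : ↥(D.group F) := ⟨tor D F c, tor_mem S c⟩

theorem gt_gx (c : ℕ → Fˣ) {r : ℕ} (hr : r < D.nroots) (t : F) :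
    gt S c * gx S r t = gx S r ((torusVal D c r : F) * t) * gt S c := by
  apply Subtype.ext
  show tor D F c * S.xG F r t = S.xG F r _ * tor D F c
  rw [← mul_inv_eq_iff_eq_mul]
  exact S.tor_conj F c hr t

/-- The torus element `h_γ(μ)`. -/
def hGam (γ : ℕ) (μ : Fˣ) : ℕ → Fˣ := fun j => μ ^ (D.coroot.getD γ #[]).getD j 0

include S in
theorem torusVal_hGam (γ r : ℕ) (μ : Fˣ) :
    torusVal D (hGam (D := D) γ μ) r = μ ^ D.pairing γ r := by
  rw [S.pairing_eq, torusVal]
  generalize Finset.range D.rank = A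
  induction A using Finset.induction_on with
  | empty => simp
  | insert j A hj ih => rw [Finset.sum_insert hj, Finset.prod_insert hj, _root_.zpow_add, ih, hGam, _root_.zpow_mul]

theorem gx_swap_of_nil {r b : ℕ} (hr : r < D.nroots) (hb : b < D.nroots) (h1 : b ≠ r)
    (h2 : b ≠ D.neg r) (h : D.commTerms r b = []) (t u : F) :
    gx S b u * gx S r t = gx S r t * gx S b u :=
  Subtype.ext (S.xG_commute F hr hb h1 h2 h t u).eq.symm

theorem gx_swap_of_single {r b x : ℕ} {C : ℤ} (hr : r < D.nroots) (hb : b < D.nroots) (h1 : b ≠ r)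
    (h2 : b ≠ D.neg r) (h : D.commTerms r b = [(x, C, 1, 1)]) (t u : F) :
    gx S b u * gx S r t = gx S r t * gx S b u * gx S x (-(C : F) * t * u) := by
  apply Subtype.ext
  apply Units.ext
  show D.x F b u * D.x F r t = D.x F r t * D.x F b u * D.x F x _
  rw [S.commutator_formula F hr hb h1 h2 t u, ChevalleyDatum.commWord, h]
  simp [ChevalleyDatum.wordMat]

/-- Good projections: they commute with the root subgroups of `st.prev` and the torus. -/
structure Good (R : ↥(D.group F) →* Matrix (Fin k) (Fin k) ℂ) (st : Step)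
    (P : Matrix (Fin k) (Fin k) ℂ) : Prop where
  idem : P * P = P
  root : ∀ r ∈ st.prev, ∀ t : F, R (gx S r t) * P = P * R (gx S r t)
  torus : ∀ c : ℕ → Fˣ, R (gt S c) * P = P * R (gt S c)

variable {st : Step}

theorem root_lt (hsh : chkShape D st = true) (r : st.Co) : st.root r < D.nroots := by
  simp only [chkShape, Bool.and_eq_true, List.all_eq_true, decide_eq_true_eq] at hsh
  exact hsh.1.1.1.1 _ (List.get_mem _ _)

theorem lev_lt (hsh : chkShape D st = true) {β : ℕ} (hβ : β ∈ st.lev) : β < D.nroots := by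
  simp only [chkShape, Bool.and_eq_true, List.all_eq_true, decide_eq_true_eq] at hsh
  exact hsh.1.1.1.2 _ hβ

theorem lev_prev (hsh : chkShape D st = true) {β : ℕ} (hβ : β ∈ st.lev) : β ∈ st.prev := by
  simp only [chkShape, Bool.and_eq_true, List.all_eq_true, decide_eq_true_eq,
    List.contains_iff_mem] at hsh
  exact hsh.1.1.2 _ hβ

theorem root_prev (hsh : chkShape D st = true) (r : st.Co) : st.root r ∈ st.prev := by
  simp only [chkShape, Bool.and_eq_true, List.all_eq_true, decide_eq_true_eq,
    List.contains_iff_mem] at hsh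
  exact hsh.1.2 _ (List.get_mem _ _)

theorem shape_pair (hsh : chkShape D st = true) {r r' : st.Co} (h : r ≠ r') :
    st.root r' ≠ st.root r ∧ st.root r' ≠ D.neg (st.root r) ∧
      D.commTerms (st.root r) (st.root r') = [] := by
  simp only [chkShape, Bool.and_eq_true, List.all_eq_true, decide_eq_true_eq, Bool.or_eq_true,
    List.isEmpty_iff] at hsh
  rcases hsh.2 r (List.mem_finRange _) r' (List.mem_finRange _) with h' | ⟨⟨a, b⟩, c⟩
  · exact absurd h' h
  · exact ⟨a, b, c⟩

theorem root_inj (hsh : chkShape D st = true) : Function.Injective (st.root) := by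
  intro r r' e
  by_contra h
  exact (shape_pair hsh h).1 e.symm

/-- The radical of a step, parametrised. -/
def uHom (hsh : chkShape D st = true) : Multiplicative (st.Co → F) →* ↥(D.group F) :=
  (MonoidHom.noncommPiCoprod (fun r : st.Co => gxHom S (F := F) (st.root r))
    (fun r r' hne x y => by
      obtain ⟨a, b, c⟩ := shape_pair hsh hne
      exact (gx_swap_of_nil S (root_lt hsh r) (root_lt hsh r') a b c _ _).symm)).comp
    (MulEquiv.piMultiplicative fun _ : st.Co => F).toMonoidHom

theorem uHom_single (hsh : chkShape D st = true) (r : st.Co) (t : F) :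
    uHom S hsh (Multiplicative.ofAdd (Pi.single r t)) = gx S (st.root r) t := by
  rw [uHom, MonoidHom.comp_apply]
  have e : (MulEquiv.piMultiplicative fun _ : st.Co => F).toMonoidHom
      (Multiplicative.ofAdd (Pi.single r t)) = Pi.mulSingle r (Multiplicative.ofAdd t) := by
    funext j
    by_cases hj : j = r
    · subst hj; simp
    · simp [Pi.mulSingle_eq_of_ne hj, Pi.single_eq_of_ne hj]
  rw [e]
  exact MonoidHom.noncommPiCoprod_mulSingle _ _ _

attribute [irreducible] uHom

theorem uHom_ext (hsh : chkShape D st = true) (g : ↥(D.group F)) (A : (st.Co → F) →+ (st.Co → F))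
    (h : ∀ r t, g * uHom S hsh (Multiplicative.ofAdd (Pi.single r t)) =
      uHom S hsh (Multiplicative.ofAdd (A (Pi.single r t))) * g) (v : st.Co → F) :
    g * uHom S hsh (Multiplicative.ofAdd v) = uHom S hsh (Multiplicative.ofAdd (A v)) * g := by
  rw [← Finset.univ_sum_single v]
  induction (Finset.univ : Finset st.Co) using Finset.induction_on with
  | empty => rw [Finset.sum_empty, A.map_zero, ofAdd_zero, map_one, one_mul, mul_one]
  | insert a s ha ih =>
    rw [Finset.sum_insert ha, A.map_add, ofAdd_add, ofAdd_add, map_mul, map_mul, ← mul_assoc, h,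
      mul_assoc, ih, mul_assoc]

/-! ### Root moves -/

/-- The nilpotent part of a root element on the radical. -/
def nF (D : ChevalleyDatum) (F : Type*) [Field F] (st : Step) (β : ℕ) : Matrix st.Co st.Co F :=
  Matrix.of fun k r => (st.nCoef D β k r : F)

/-- The contragredient action of a root element. -/
def bx (D : ChevalleyDatum) (st : Step) (β : ℕ) (t : F) (φ : st.Co → F) : st.Co → F :=
  fun r => φ r - t * ∑ k, (st.nCoef D β k r : F) * φ k

theorem bx_eq (β : ℕ) (t : F) (φ : st.Co → F) :
    bx D st β t φ = φ - t • (φ ᵥ* nF D F st β) := by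
  funext r
  simp [bx, nF, Matrix.vecMul, dotProduct, mul_comm]

theorem normal_cases (hno : chkNormal D st = true) (hsh : chkShape D st = true) {β : ℕ}
    (hβ : β ∈ st.lev) (r : st.Co) :
    β ≠ st.root r ∧ β ≠ D.neg (st.root r) ∧
      ((D.commTerms (st.root r) β = [] ∧ ∀ k, st.nCoef D β k r = 0) ∨
        ∃ k C, D.commTerms (st.root r) β = [(st.root k, C, 1, 1)] ∧ (C = 1 ∨ C = -1) ∧
          D.commTerms (st.root k) β = [] ∧ ∀ k', st.nCoef D β k' r = if k' = k then -C else 0) := by
  simp only [chkNormal, List.all_eq_true] at hno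
  have h := hno β hβ r (List.mem_finRange _)
  simp only [Bool.and_eq_true, decide_eq_true_eq] at h
  obtain ⟨⟨h1, h2⟩, h3⟩ := h
  refine ⟨h1, h2, ?_⟩
  unfold Step.nCoef
  split at h3
  · next he => exact Or.inl ⟨he, fun k => by rw [he]⟩
  · next x C he =>
    simp only [Bool.and_eq_true, decide_eq_true_eq, List.contains_iff_mem, List.isEmpty_iff] at h3
    obtain ⟨⟨hx, hC⟩, hc⟩ := h3
    obtain ⟨k, hk⟩ := List.get_of_mem hx
    refine Or.inr ⟨k, C, ?_, hC, ?_, fun k' => ?_⟩
    · rw [he]; show _ = [(st.S.get k, _)]; rw [hk]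
    · show D.commTerms (st.S.get k) β = []; rw [hk]; exact hc
    · rw [he]
      show (if x = st.root k' then -C else 0) = _
      have hx' : st.root k = x := hk
      rw [← hx']
      by_cases h : k' = k
      · rw [if_pos (by rw [h]), if_pos h]
      · rw [if_neg (fun e => h ((root_inj hsh e).symm)), if_neg h]
  · exact absurd h3 Bool.false_ne_true

theorem nF_sq (hno : chkNormal D st = true) (hsh : chkShape D st = true) {β : ℕ}
    (hβ : β ∈ st.lev) : nF D F st β * nF D F st β = 0 := by
  ext j r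
  rw [Matrix.mul_apply, Matrix.zero_apply]
  refine Finset.sum_eq_zero fun k _ => ?_
  obtain ⟨-, -, ⟨-, h0⟩ | ⟨k0, C, -, -, hc, hk⟩⟩ := normal_cases hno hsh hβ r
  · simp [nF, h0]
  · by_cases hkk : k = k0
    · subst hkk
      have : st.nCoef D β j k = 0 := by rw [Step.nCoef, hc]
      simp [nF, this]
    · simp [nF, hk, hkk]

theorem bx_bx (hno : chkNormal D st = true) (hsh : chkShape D st = true) {β : ℕ}
    (hβ : β ∈ st.lev) (t : F) (φ : st.Co → F) : bx D st β (-t) (bx D st β t φ) = φ := by
  rw [bx_eq, bx_eq, Matrix.sub_vecMul, Matrix.smul_vecMul, Matrix.vecMul_vecMul,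
    nF_sq hno hsh hβ, Matrix.vecMul_zero, smul_zero, sub_zero, neg_smul, sub_neg_eq_add,
    sub_add_cancel]

variable {R : ↥(D.group F) →* Matrix (Fin k) (Fin k) ℂ} {P : Matrix (Fin k) (Fin k) ℂ}

theorem moves_gx (hG : Good S R st P) (hno : chkNormal D st = true) (hsh : chkShape D st = true)
    {β : ℕ} (hβ : β ∈ st.lev) (t : F) :
    Moves R (uHom S hsh) P (gx S β t) (bx D st β t) := by
  refine ⟨hG.root _ (lev_prev hsh hβ) t, fun v => v + t • (nF D F st β *ᵥ v), ?_, ?_, ?_⟩
  · refine Function.bijective_iff_has_inverse.2 ⟨fun v => v + (-t) • (nF D F st β *ᵥ v), ?_, ?_⟩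
    all_goals
      intro v
      simp only [Matrix.mulVec_add, Matrix.mulVec_smul, Matrix.mulVec_mulVec, nF_sq hno hsh hβ,
        Matrix.zero_mulVec, smul_zero, add_zero]
      funext r
      simp
  · intro v φ
    rw [bx_eq, add_dotProduct, dotProduct_sub, dotProduct_sub, smul_dotProduct, smul_dotProduct,
      dotProduct_smul, dotProduct_smul]
    have e1 : v ⬝ᵥ (φ ᵥ* nF D F st β) = (nF D F st β *ᵥ v) ⬝ᵥ φ := by
      rw [dotProduct_comm, ← Matrix.dotProduct_mulVec, dotProduct_comm]
    have e2 : (nF D F st β *ᵥ v) ⬝ᵥ (φ ᵥ* nF D F st β) = 0 := by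
      rw [dotProduct_comm, ← Matrix.dotProduct_mulVec, Matrix.mulVec_mulVec, nF_sq hno hsh hβ,
        Matrix.zero_mulVec, dotProduct_zero]
    rw [e1, e2]
    simp
  · intro v
    let A : (st.Co → F) →+ (st.Co → F) := AddMonoidHom.mk' (fun w => w + t • (nF D F st β *ᵥ w))
      (fun x y => by rw [Matrix.mulVec_add, smul_add, add_add_add_comm])
    refine uHom_ext S hsh _ A ?_ v
    intro r a
    show gx S β t * _ = uHom S hsh (Multiplicative.ofAdd
      (Pi.single r a + t • (nF D F st β *ᵥ Pi.single r a))) * gx S β t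
    rw [ofAdd_add, map_mul, uHom_single]
    obtain ⟨h1, h2, ⟨hc, h0⟩ | ⟨x, C, hc, hC, hxc, hk⟩⟩ := normal_cases hno hsh hβ r
    · have : nF D F st β *ᵥ Pi.single r a = 0 := by
        funext j; simp [nF, h0]
      rw [this, smul_zero, ofAdd_zero, map_one, mul_one]
      exact gx_swap_of_nil S (root_lt hsh r) (lev_lt hsh hβ) h1 h2 hc a t
    · have : t • (nF D F st β *ᵥ Pi.single r a) = Pi.single x (-(C : F) * a * t) := by
        funext j
        by_cases hj : j = x
        · subst hj; simp [nF, hk]; ring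
        · simp [nF, hk, hj]
      rw [this, uHom_single, gx_swap_of_single S (root_lt hsh r) (lev_lt hsh hβ) h1 h2 hc]
      obtain ⟨a1, a2, -⟩ := normal_cases hno hsh hβ x
      rw [mul_assoc (gx S (st.root r) a) (gx S β t),
        gx_swap_of_nil S (root_lt hsh x) (lev_lt hsh hβ) a1 a2 hxc _ t, ← mul_assoc]

/-! ### Torus -/

/-- The contragredient action of a torus element. -/
def bt (D : ChevalleyDatum) (st : Step) (c : ℕ → Fˣ) (φ : st.Co → F) : st.Co → F :=
  fun r => (((torusVal D c (st.root r))⁻¹ : Fˣ) : F) * φ r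

theorem moves_gt (hG : Good S R st P) (hsh : chkShape D st = true) (c : ℕ → Fˣ) :
    Moves R (uHom S hsh) P (gt S c) (bt D st c) := by
  refine ⟨hG.torus c, fun v r => (torusVal D c (st.root r) : F) * v r, ?_, ?_, ?_⟩
  · refine Function.bijective_iff_has_inverse.2
      ⟨fun v r => (((torusVal D c (st.root r))⁻¹ : Fˣ) : F) * v r, ?_, ?_⟩
    all_goals
      intro v
      funext r
      simp [← mul_assoc]
  · intro v φ
    simp only [dotProduct, bt]
    refine Finset.sum_congr rfl fun r _ => ?_
    rw [mul_mul_mul_comm, ← Units.val_mul, mul_inv_cancel, Units.val_one, one_mul]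
  · intro v
    refine uHom_ext S hsh _
      (AddMonoidHom.mk' (fun w r => (torusVal D c (st.root r) : F) * w r)
        fun x y => by funext r; exact mul_add _ _ _) ?_ v
    intro r a
    show gt S c * _ = uHom S hsh (Multiplicative.ofAdd fun j => _ * Pi.single r a j) * gt S c
    have : (fun j => (torusVal D c (st.root j) : F) * (Pi.single r a : st.Co → F) j) =
        Pi.single r ((torusVal D c (st.root r) : F) * a) := by
      funext j
      by_cases hj : j = r
      · subst hj; simp
      · simp [hj]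
    rw [this, uHom_single, uHom_single]
    exact gt_gx S c (root_lt hsh r) a

/-! ### Words -/

theorem nG_gx {i r : ℕ} (hi : i < D.rank) (hr : r < D.nroots) (t : F) :
    (⟨S.nG F (D.simple i) 1, S.nG_mem F (S.wf.simple_lt i hi) 1⟩ : ↥(D.group F)) * gx S r t =
      gx S (D.reflectRoot i r) ((S.eta i r : F) * t) *
        ⟨S.nG F (D.simple i) 1, S.nG_mem F (S.wf.simple_lt i hi) 1⟩ :=
  Subtype.ext (S.nG_conj_xG F hi hr t)

include S in
theorem wimg_lt : ∀ (w : List ℕ) (_ : ∀ i ∈ w, i < D.rank) {r : ℕ}, r < D.nroots →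
    wimg D w r < D.nroots
  | [], _, _, hr => hr
  | i :: w, hw, r, hr => by
    rw [List.forall_mem_cons] at hw
    exact S.w_lt i hw.1 _ (wimg_lt w hw.2 hr)

include S in
theorem wimg_inj : ∀ (w : List ℕ) (_ : ∀ i ∈ w, i < D.rank) {r r' : ℕ}, r < D.nroots →
    r' < D.nroots → wimg D w r = wimg D w r' → r = r'
  | [], _, _, _, _, _, h => h
  | i :: w, hw, r, r', hr, hr', h => by
    rw [List.forall_mem_cons] at hw
    exact wimg_inj w hw.2 hr hr'
      (S.w_inj hw.1 (wimg_lt S w hw.2 hr) (wimg_lt S w hw.2 hr') h)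

theorem exists_word (hw : ∀ r ∈ st.prev, ∀ t : F, R (gx S r t) * P = P * R (gx S r t)) :
    ∀ w : List ℕ, (∀ i ∈ w, i < D.rank ∧ D.simple i ∈ st.prev ∧ D.neg (D.simple i) ∈ st.prev) →
    ∃ g : ↥(D.group F), R g * P = P * R g ∧ ∀ r < D.nroots, ∃ c : Fˣ, ∀ t : F,
      g * gx S r t = gx S (wimg D w r) ((c : F) * t) * g := by
  intro w
  induction w with
  | nil => exact fun _ => ⟨1, by rw [map_one, one_mul, mul_one], fun r _ => ⟨1, fun t => by
      rw [Units.val_one, one_mul, one_mul, mul_one]; rfl⟩⟩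
  | cons i w ih =>
    intro h
    rw [List.forall_mem_cons] at h
    obtain ⟨⟨hi, hp, hn⟩, hrest⟩ := h
    obtain ⟨g, hg, hgx⟩ := ih hrest
    set n : ↥(D.group F) := ⟨S.nG F (D.simple i) 1, S.nG_mem F (S.wf.simple_lt i hi) 1⟩ with hn'
    have hnP : R n * P = P * R n := by
      have e : n = gx S (D.simple i) 1 * gx S (D.neg (D.simple i)) (-1⁻¹) * gx S (D.simple i) 1 := by
        apply Subtype.ext
        show S.nG F (D.simple i) 1 = S.xG F _ _ * S.xG F _ _ * S.xG F _ _
        simp [Sys.nG, Sys.wG, ChevalleyDatum.nWord, mul_assoc]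
      rw [e, map_mul, map_mul, mul_assoc, hw _ hp, ← mul_assoc, mul_assoc (R _), hw _ hn,
        ← mul_assoc, hw _ hp]
      simp only [mul_assoc]
    refine ⟨n * g, by rw [map_mul, mul_assoc, hg, ← mul_assoc, hnP, mul_assoc], fun r hr => ?_⟩
    obtain ⟨c, hc⟩ := hgx r hr
    have hlt := wimg_lt S w (fun j hj => (hrest j hj).1) hr
    have he := S.eta_cast F hi hlt
    refine ⟨Units.mk0 (S.eta i (wimg D w r) : F) (left_ne_zero_of_mul_eq_one he) * c, fun t => ?_⟩
    rw [mul_assoc, hc, ← mul_assoc, nG_gx S hi hlt, mul_assoc, Units.val_mul, Units.val_mk0,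
      mul_assoc (S.eta i (wimg D w r) : F)]
    rfl

theorem moves_word (hsh : chkShape D st = true) {g : ↥(D.group F)} (hgP : R g * P = P * R g)
    {w : List ℕ} {σ : Equiv.Perm st.Co} (hσ : ∀ r, wimg D w (st.root r) = st.root (σ r))
    (hg : ∀ r < D.nroots, ∃ c : Fˣ, ∀ t : F, g * gx S r t = gx S (wimg D w r) ((c : F) * t) * g) :
    ∃ c : st.Co → Fˣ, Moves R (uHom S hsh) P g
      (fun φ j => (((c (σ.symm j))⁻¹ : Fˣ) : F) * φ (σ.symm j)) := by
  choose c hc using fun r : st.Co => hg (st.root r) (root_lt hsh r)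
  refine ⟨c, hgP, fun v j => (c (σ.symm j) : F) * v (σ.symm j), ?_, ?_, ?_⟩
  · refine Function.bijective_iff_has_inverse.2
      ⟨fun v r => (((c r)⁻¹ : Fˣ) : F) * v (σ r), ?_, ?_⟩
    · intro v; funext r; simp [← mul_assoc]
    · intro v; funext r; simp [← mul_assoc]
  · intro v φ
    simp only [dotProduct]
    rw [← Equiv.sum_comp σ]
    refine Finset.sum_congr rfl fun r _ => ?_
    rw [σ.symm_apply_apply, mul_mul_mul_comm, ← Units.val_mul, mul_inv_cancel, Units.val_one,
      one_mul]
  · intro v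
    refine uHom_ext S hsh _
      (AddMonoidHom.mk' (fun w j => (c (σ.symm j) : F) * w (σ.symm j))
        fun x y => by funext j; exact mul_add _ _ _) ?_ v
    intro r a
    show g * _ = uHom S hsh (Multiplicative.ofAdd fun j =>
      (c (σ.symm j) : F) * (Pi.single r a : st.Co → F) (σ.symm j)) * g
    have : (fun j => (c (σ.symm j) : F) * (Pi.single r a : st.Co → F) (σ.symm j)) =
        Pi.single (σ r) ((c r : F) * a) := by
      funext j
      by_cases hj : j = σ r
      · subst hj; simp
      · have hne : σ.symm j ≠ r := fun e => hj (by rw [← e, σ.apply_symm_apply])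
        rw [Pi.single_eq_of_ne hne, Pi.single_eq_of_ne hj, mul_zero]
    rw [this, uHom_single, uHom_single, hc, hσ]

end CfsgLib.E6Deg
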