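import Mathlib

/-!
No degree just below the bound divides the class size times a power of the field size.
-/

set_option autoImplicit false

namespace CfsgLib.E6Deg

theorem small_field :
    ∀ q < 17, 3 ≤ q → ∀ j < 7, 0 < j → ¬ (q ^ 11 + q ^ 8 + q ^ 7 + q ^ 5 + q ^ 4 + q - j) ∣
      (q ^ 4 + 1) * (q ^ 6 + q ^ 3 + 1) * (q ^ 12 - 1) * q ^ 11 := by
  decide +kernel

theorem two_field :
    ∀ i < 32, ¬ (2450 + i) ∣ (2 ^ 4 + 1) * (2 ^ 6 + 2 ^ 3 + 1) * (2 ^ 12 - 1) * 2 ^ 11 := by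
  decide +kernel

theorem large_field {q k : ℕ} (hpp : ∃ p e, p.Prime ∧ q = p ^ e) (h17 : 17 ≤ q)
    (hlt : k < q * (q ^ 6 + q ^ 3 + 1) * (q ^ 4 + 1))
    (hge : q ^ 11 + q ^ 8 + q ^ 7 + q ^ 5 + q ^ 4 + q ≤ k + 6) :
    ¬ k ∣ (q ^ 4 + 1) * (q ^ 6 + q ^ 3 + 1) * (q ^ 12 - 1) * q ^ 11 := by
  intro hdvd
  have hb : q * (q ^ 6 + q ^ 3 + 1) * (q ^ 4 + 1) = q ^ 11 + q ^ 8 + q ^ 7 + q ^ 5 + q ^ 4 + q := by
    ring
  obtain ⟨j, hj⟩ := Nat.exists_eq_add_of_le hlt.le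
  have hj0 : 0 < j := by omega
  have hj6 : j ≤ 6 := by omega
  set C := q ^ 12 - 1 with hC
  have h1 : k ∣ j * C * q ^ 10 := by
    have e : (q ^ 4 + 1) * (q ^ 6 + q ^ 3 + 1) * C * q ^ 11 = k * (C * q ^ 10) + j * C * q ^ 10 := by
      calc _ = q * (q ^ 6 + q ^ 3 + 1) * (q ^ 4 + 1) * (C * q ^ 10) := by ring
        _ = (k + j) * (C * q ^ 10) := by rw [hj]
        _ = _ := by ring
    rw [e] at hdvd
    exact (Nat.dvd_add_right (Dvd.intro _ rfl)).1 hdvd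
  have h2 : Nat.gcd k (q ^ 10) ∣ j := by
    obtain ⟨p, e, hp, rfl⟩ := hpp
    obtain ⟨a, -, ha⟩ := (Nat.dvd_prime_pow hp).1
      (show Nat.gcd k ((p ^ e) ^ 10) ∣ p ^ (e * 10) by rw [pow_mul]; exact Nat.gcd_dvd_right _ _)
    have hak : p ^ a ∣ k := ha ▸ Nat.gcd_dvd_left _ _
    have hqb : p ^ e ∣ k + j := by
      rw [← hj, mul_assoc]
      exact dvd_mul_right _ _
    have hae : a < e := by
      by_contra hc
      push Not at hc
      have := Nat.le_of_dvd hj0 ((Nat.dvd_add_right ((pow_dvd_pow p hc).trans hak)).1 hqb)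
      omega
    rw [ha]
    exact (Nat.dvd_add_right hak).1 ((pow_dvd_pow p hae.le).trans hqb)
  have h3 : k ∣ j * C * j := by
    have h : k ∣ Nat.gcd (k * (j * C)) (q ^ 10 * (j * C)) :=
      Nat.dvd_gcd (dvd_mul_right _ _) (by rw [mul_comm (q ^ 10)]; exact h1)
    rw [Nat.gcd_mul_right, mul_comm] at h
    exact h.trans (Nat.mul_dvd_mul_left _ h2)
  set X := q ^ 9 + q ^ 8 + q ^ 6 + q ^ 5 + q ^ 2 + 1 with hX
  have hC1 : C + 1 = q ^ 12 := Nat.sub_add_cancel (Nat.one_le_pow _ _ (by omega))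
  have hqX : q * j < X := by
    have : q * j ≤ q * 6 := Nat.mul_le_mul_left _ hj6
    nlinarith [Nat.zero_le (q ^ 9), Nat.zero_le (q ^ 8), Nat.zero_le (q ^ 6), Nat.zero_le (q ^ 5)]
  have he : q * k = C + (X - q * j) := by
    have : q * k + q * j = C + X := by
      calc q * k + q * j = q * (q * (q ^ 6 + q ^ 3 + 1) * (q ^ 4 + 1)) := by rw [hj]; ring
        _ = (C + 1) + (q ^ 9 + q ^ 8 + q ^ 6 + q ^ 5 + q ^ 2) := by rw [hC1]; ring
        _ = _ := by rw [hX]; ring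
    omega
  have h4 : k ∣ j * j * (X - q * j) := by
    have : k ∣ j * C * j + j * j * (X - q * j) :=
      ⟨j * j * q, by
        calc j * C * j + j * j * (X - q * j) = j * j * (C + (X - q * j)) := by ring
          _ = j * j * (q * k) := by rw [he]
          _ = _ := by ring⟩
    exact (Nat.dvd_add_right h3).1 this
  have h5 := Nat.le_of_dvd (Nat.mul_pos (Nat.mul_pos hj0 hj0) (Nat.sub_pos_of_lt hqX)) h4
  have h6 : j * j * (X - q * j) ≤ 36 * X :=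
    Nat.mul_le_mul (Nat.mul_le_mul hj6 hj6) (Nat.sub_le _ _)
  have m8 : q ^ 8 ≤ q ^ 9 := Nat.pow_le_pow_right (by omega) (by norm_num)
  have m6 : q ^ 6 ≤ q ^ 9 := Nat.pow_le_pow_right (by omega) (by norm_num)
  have m5 : q ^ 5 ≤ q ^ 9 := Nat.pow_le_pow_right (by omega) (by norm_num)
  have m2 : q ^ 2 ≤ q ^ 9 := Nat.pow_le_pow_right (by omega) (by norm_num)
  have m0 : 1 ≤ q ^ 9 := Nat.one_le_pow _ _ (by omega)
  have h7 : 289 * q ^ 9 ≤ q ^ 11 := by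
    calc 289 * q ^ 9 = 17 ^ 2 * q ^ 9 := by norm_num
      _ ≤ q ^ 2 * q ^ 9 := Nat.mul_le_mul_right _ (Nat.pow_le_pow_left h17 2)
      _ = q ^ 11 := by ring
  omega

/-- No admissible degree below the bound. -/
theorem no_degree {q k : ℕ} (hpp : ∃ p e, p.Prime ∧ q = p ^ e) (hq : 2 ≤ q)
    (hlt : k < q * (q ^ 6 + q ^ 3 + 1) * (q ^ 4 + 1)) (h2 : q = 2 → 2450 ≤ k)
    (h3 : 3 ≤ q → q ^ 11 + q ^ 8 + q ^ 7 + q ^ 5 + q ^ 4 + q ≤ k + 6) :
    ¬ k ∣ (q ^ 4 + 1) * (q ^ 6 + q ^ 3 + 1) * (q ^ 12 - 1) * q ^ 11 := by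
  rcases eq_or_lt_of_le hq with h | h
  · subst h
    have := h2 rfl
    obtain ⟨i, rfl⟩ := Nat.exists_eq_add_of_le this
    exact two_field i (by norm_num at hlt ⊢; omega)
  · rcases le_or_gt 17 q with h17 | h17
    · exact large_field hpp h17 hlt (h3 h)
    · have hb : q * (q ^ 6 + q ^ 3 + 1) * (q ^ 4 + 1) =
          q ^ 11 + q ^ 8 + q ^ 7 + q ^ 5 + q ^ 4 + q := by ring
      have hge := h3 h
      rw [hb] at hlt
      obtain ⟨j, hj⟩ := Nat.exists_eq_add_of_le hlt.le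
      have hs := small_field q h17 h j (by omega) (by omega)
      rw [hj, Nat.add_sub_cancel] at hs
      exact hs

end CfsgLib.E6Deg
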