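import Cfsg.Agent.E6Deg.Struct
import Cfsg.Agent.E6Deg.Data
import Cfsg.Agent.Chevalley.Data.SysE6

/-!
The chain of steps for type E6: the degree and the character value of a highest root element.
-/

set_option autoImplicit false
set_option linter.unusedSectionVars false

open scoped Classical

noncomputable section

namespace CfsgLib.E6Deg

open Matrix Cfsg.Lie CfsgLib.Chevalley

variable {D : ChevalleyDatum} {S : Sys D} {F : Type*} [Field F] [Fintype F] {k : ℕ} {st : Step}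
  {top : st.Co} {R : ↥(D.group F) →* Matrix (Fin k) (Fin k) ℂ} {P : Matrix (Fin k) (Fin k) ℂ}
  {ψ : AddChar F ℂ}

theorem good_one (S : Sys D) (R : ↥(D.group F) →* Matrix (Fin k) (Fin k) ℂ) (st : Step) :
    Good S R st 1 :=
  ⟨one_mul 1, fun _ _ _ => by rw [one_mul, mul_one], fun _ => by rw [one_mul, mul_one]⟩

/-- Root elements act trivially as soon as those of the tops do. -/
theorem eq_one_of_tops (hprev : ∀ i < D.rank, D.simple i ∈ st.prev ∧ D.neg (D.simple i) ∈ st.prev)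
    (h : ∀ r ∈ S.tops, ∀ t : F, R (gx S r t) = 1) (g : ↥(D.group F)) : R g = 1 := by
  have hroot : ∀ r < D.nroots, ∀ t : F, R (gx S r t) = 1 := by
    refine S.top_induction h fun i hi r hr ih t => ?_
    obtain ⟨x, -, hx⟩ := exists_word S (good_one S R st).root [i] (fun j hj => by
      rw [List.mem_singleton] at hj
      subst hj
      exact ⟨hi, hprev j hi⟩)
    obtain ⟨c, hc⟩ := hx r hr
    have e := congrArg R (hc t)
    rw [map_mul, map_mul, show wimg D [i] r = D.reflectRoot i r from rfl, ih, one_mul] at e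
    have hu : R x⁻¹ * R x = 1 := by rw [← map_mul, inv_mul_cancel, map_one]
    calc R (gx S r t) = R x⁻¹ * (R x * R (gx S r t)) := by rw [← mul_assoc, hu, one_mul]
      _ = 1 := by rw [e, hu]
  obtain ⟨g, hg⟩ := g
  have hle : Subgroup.closure {g : GL D.Idx F | ∃ r < D.nroots, ∃ t : F, g = S.xG F r t} ≤
      R.ker.map (D.group F).subtype := by
    refine (Subgroup.closure_le _).mpr ?_
    rintro y ⟨r, hr, t, rfl⟩
    exact ⟨gx S r t, hroot r hr t, rfl⟩
  have hg' := hg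
  rw [S.group_eq F] at hg'
  obtain ⟨y, hy, hyg⟩ := hle hg'
  have e : y = ⟨g, hg⟩ := Subtype.ext hyg
  rw [← e]
  exact hy

/-- A nonzero weight, if the highest root elements act nontrivially. -/
theorem exists_weight {ok : Ok D st top} {hp : ProjHyp R (uHom S ok.shape) ψ 1}
    (h : ∃ t : F, R (gx S (st.root top) t) ≠ 1) : ∃ φ : st.Co → F, φ ≠ 0 ∧ mult hp φ ≠ 0 := by
  obtain ⟨t, ht⟩ := h
  by_contra hc
  push Not at hc
  refine ht ?_
  have e : proj R (uHom S ok.shape) ψ 1 0 = 1 := by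
    refine Eq.trans ?_ (sum_proj hp)
    rw [Finset.sum_eq_single (0 : st.Co → F) (fun φ _ hφ => proj_eq_zero hp (hc φ hφ))
      (fun h0 => absurd (Finset.mem_univ _) h0)]
  have e2 := R_u_mul_proj (R := R) (u := uHom S ok.shape) (ψ := ψ) (P := 1) (Pi.single top t) 0
  rw [e, mul_one, dotProduct_zero, AddChar.map_zero_eq_one, one_smul, uHom_single] at e2
  exact e2

/-- One later step. -/
theorem step_next (ok : Ok D st top) (hG : Good S R st P) (hψ : ψ 1 ≠ 1)
    (hδ : ∀ t : F, t ≠ 0 →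
      P.trace - (R (gx S (st.root top) t) * P).trace = (Fintype.card F : ℂ) ^ (st.n1 D top + 1)) :
    ∃ hp : ProjHyp R (uHom S ok.shape) ψ P, Simple1 ok hp :=
  ⟨good_projHyp hψ ok hG, simple_of_deficiency ok hG _ hδ⟩

theorem trace_nextP (ok : Ok D st top) (hp : ProjHyp R (uHom S ok.shape) ψ P) :
    (nextP D S R ok.shape ψ P).trace = (mult hp (0 : st.Co → F) : ℂ) :=
  trace_proj hp 0

theorem geom_shift {q : ℕ} (hq : 1 ≤ q) (a : ℕ) :
    ∀ n, (q - 1) * ((List.range' a n).map fun e => q ^ e).sum + q ^ a = q ^ (a + n)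
  | 0 => by simp
  | n + 1 => by
    obtain ⟨m, rfl⟩ := Nat.exists_eq_add_of_le hq
    have h := geom_shift (q := 1 + m) (Nat.le_add_right 1 m) a n
    rw [List.range'_concat, List.map_append, List.sum_append, mul_add, List.map_singleton,
      List.sum_singleton, one_mul, add_right_comm, h, Nat.add_sub_cancel_left, ← add_assoc, pow_succ]
    ring

theorem next_eq {q a n n' : ℕ} {N x : ℂ} {L : List ℕ}
    (e : N - x + (((q - 1) * (L.map fun i => q ^ i).sum : ℕ) : ℂ) = (q : ℂ) ^ (n + 1))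
    {len : ℕ} (hg : (q - 1) * ((List.range' a len).map fun i => q ^ i).sum + q ^ a = q ^ (a + len))
    (ha : a = n' + 1) (hL : L = List.range' a len) (hn : n + 1 = a + len) :
    N - x = (q : ℂ) ^ (n' + 1) := by
  subst hL
  rw [hn] at e
  have hg' : (((q - 1) * ((List.range' a len).map fun i => q ^ i).sum : ℕ) : ℂ) + (q : ℂ) ^ a =
      (q : ℂ) ^ (a + len) := by
    rw [← Nat.cast_pow, ← Nat.cast_pow, ← Nat.cast_add, hg]
  rw [← ha]
  linear_combination e - hg'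

theorem bound_lt_pow {q : ℕ} (hq : 2 ≤ q) :
    q * (q ^ 6 + q ^ 3 + 1) * (q ^ 4 + 1) < q ^ 12 := by
  have h8 : 8 * q ^ 8 ≤ q ^ 11 := by
    calc 8 * q ^ 8 = 2 ^ 3 * q ^ 8 := by norm_num
      _ ≤ q ^ 3 * q ^ 8 := Nat.mul_le_mul_right _ (Nat.pow_le_pow_left hq 3)
      _ = q ^ 11 := by ring
  have h12 : 2 * q ^ 11 ≤ q ^ 12 := by
    calc 2 * q ^ 11 ≤ q * q ^ 11 := Nat.mul_le_mul_right _ hq
      _ = q ^ 12 := by ring
  have m1 : q ≤ q ^ 8 := Nat.le_self_pow (by norm_num) q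
  have m4 : q ^ 4 ≤ q ^ 8 := Nat.pow_le_pow_right (by omega) (by norm_num)
  have m5 : q ^ 5 ≤ q ^ 8 := Nat.pow_le_pow_right (by omega) (by norm_num)
  have m7 : q ^ 7 ≤ q ^ 8 := Nat.pow_le_pow_right (by omega) (by norm_num)
  have p8 : 0 < q ^ 8 := Nat.pow_pos (by omega)
  have e : q * (q ^ 6 + q ^ 3 + 1) * (q ^ 4 + 1) = q ^ 11 + q ^ 8 + q ^ 7 + q ^ 5 + q ^ 4 + q := by
    ring
  omega

theorem bound_lt_two {q : ℕ} (hq : 2 ≤ q) :
    q * (q ^ 6 + q ^ 3 + 1) * (q ^ 4 + 1) < 2 * ((q - 1) *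
      (([0, 1, 2, 3, 4, 3, 4, 5, 5, 6, 7, 6, 7, 8, 9, 10] : List ℕ).map fun e => q ^ e).sum) := by
  obtain ⟨m, rfl⟩ := Nat.exists_eq_add_of_le hq
  rw [show 2 + m - 1 = m + 1 by omega]
  simp only [List.map_cons, List.map_nil, List.sum_cons, List.sum_nil]
  have e : (m + 1) * ((2 + m) ^ 0 + ((2 + m) ^ 1 + ((2 + m) ^ 2 + ((2 + m) ^ 3 + ((2 + m) ^ 4 +
      ((2 + m) ^ 3 + ((2 + m) ^ 4 + ((2 + m) ^ 5 + ((2 + m) ^ 5 + ((2 + m) ^ 6 + ((2 + m) ^ 7 +
      ((2 + m) ^ 6 + ((2 + m) ^ 7 + ((2 + m) ^ 8 + ((2 + m) ^ 9 + ((2 + m) ^ 10 + 0)))))))))))))))) +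
      ((2 + m) ^ 3 + 1) = (2 + m) ^ 11 + (2 + m) ^ 8 := by ring
  generalize hQ : 2 + m = Q at *
  have h8 : 8 * Q ^ 8 ≤ Q ^ 11 := by
    calc 8 * Q ^ 8 = 2 ^ 3 * Q ^ 8 := by norm_num
      _ ≤ Q ^ 3 * Q ^ 8 := Nat.mul_le_mul_right _ (Nat.pow_le_pow_left hq 3)
      _ = Q ^ 11 := by ring
  have m1 : Q ≤ Q ^ 8 := Nat.le_self_pow (by norm_num) Q
  have m3 : Q ^ 3 ≤ Q ^ 8 := Nat.pow_le_pow_right (by omega) (by norm_num)
  have m4 : Q ^ 4 ≤ Q ^ 8 := Nat.pow_le_pow_right (by omega) (by norm_num)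
  have m5 : Q ^ 5 ≤ Q ^ 8 := Nat.pow_le_pow_right (by omega) (by norm_num)
  have m7 : Q ^ 7 ≤ Q ^ 8 := Nat.pow_le_pow_right (by omega) (by norm_num)
  have p3 : 8 ≤ Q ^ 3 := Nat.pow_le_pow_left hq 3
  have e' : Q * (Q ^ 6 + Q ^ 3 + 1) * (Q ^ 4 + 1) = Q ^ 11 + Q ^ 8 + Q ^ 7 + Q ^ 5 + Q ^ 4 + Q := by
    ring
  omega

theorem cells_total {q k m : ℕ} (hq : 2 ≤ q)
    (h : k = m
      + (q - 1) * (([0] : List ℕ).map fun e => q ^ e).sum
      + (q - 1) * (([0, 1] : List ℕ).map fun e => q ^ e).sum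
      + (q - 1) * (([0, 1, 2] : List ℕ).map fun e => q ^ e).sum
      + (q - 1) * (([0, 1, 2, 3] : List ℕ).map fun e => q ^ e).sum
      + (q - 1) * (([0, 1, 2, 3, 2, 3, 4, 4, 5, 6] : List ℕ).map fun e => q ^ e).sum
      + (q - 1) * (([0, 1, 2, 3, 4, 3, 4, 5, 5, 6, 7, 6, 7, 8, 9, 10] : List ℕ).map
          fun e => q ^ e).sum) :
    q ^ 11 + q ^ 8 + q ^ 7 + q ^ 5 + q ^ 4 + q ≤ k + 6 := by
  obtain ⟨n, rfl⟩ := Nat.exists_eq_add_of_le hq
  simp only [show 2 + n - 1 = n + 1 by omega, List.map_cons, List.map_nil, List.sum_cons,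
    List.sum_nil] at h
  rw [h]
  exact le_of_le_of_eq (Nat.le_add_left _ m) (by ring)

theorem step_link (ok : Ok D st top) (hG : Good S R st P) (hp : ProjHyp R (uHom S ok.shape) ψ P)
    (h : Simple1 ok hp) {split : Bool} (hsq : split = true ∨ 3 ≤ Fintype.card F)
    (hb : chkBeta D st top = true) (hw : chkWit D st split = true) {st' : Step} {top' : st'.Co}
    (ok' : Ok D st' top') (hsub : ∀ r ∈ st'.prev, r ∈ st.lev) (hroot : st'.root top' = st.beta)
    (len : ℕ) (hL : ((st.movedList D).map fun s => (st.low D s).length) =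
      List.range' (st'.n1 D top' + 1) len)
    (hn : st.n1 D top + 1 = st'.n1 D top' + 1 + len) :
    ∃ hp' : ProjHyp R (uHom S ok'.shape) ψ (nextP D S R ok.shape ψ P), Simple1 ok' hp' := by
  refine step_next ok' (good_next ok hG hp hsub) hp.psi fun t ht => ?_
  have e := deficiency_next ok hG hp h hsq hb hw ht
  rw [hroot]
  exact next_eq e (geom_shift (q := Fintype.card F) Fintype.card_pos _ len) rfl hL hn

/-! ### The chain of type E6 -/

/-- The degree is at least the total of the cells, and the value at a highest root element. -/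
theorem chain (R : ↥(chevE6.group F) →* Matrix (Fin k) (Fin k) ℂ) (hR : ∃ g, R g ≠ 1)
    (hk : k < Fintype.card F * (Fintype.card F ^ 6 + Fintype.card F ^ 3 + 1) *
      (Fintype.card F ^ 4 + 1)) :
    (R (gx sysE6 71 1)).trace = (k : ℂ) - (Fintype.card F : ℂ) ^ 11 ∧
      (Fintype.card F = 2 → 2450 ≤ k) ∧
      (3 ≤ Fintype.card F → Fintype.card F ^ 11 + Fintype.card F ^ 8 + Fintype.card F ^ 7 +
        Fintype.card F ^ 5 + Fintype.card F ^ 4 + Fintype.card F ≤ k + 6) := by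
  set q := Fintype.card F with hq
  have hq2 : 2 ≤ q := Fintype.one_lt_card
  obtain ⟨ψ, hψ⟩ : ∃ ψ : AddChar F ℂ, ψ 1 ≠ 1 :=
    AddChar.exists_apply_ne_zero.2 (one_ne_zero : (1 : F) ≠ 0)
  have g0 := good_one (S := sysE6) R step0
  have p0 : ProjHyp R (uHom sysE6 ok0.shape) ψ 1 := good_projHyp hψ ok0 g0
  have htr : (1 : Matrix (Fin k) (Fin k) ℂ).trace = (k : ℂ) := by simp
  have hc0 := card_cells (D := chevE6) (F := F) (st := step0)
  rw [lows0, ← hq] at hc0
  have s0 : Simple1 ok0 p0 := by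
    refine simple_of_small ok0 g0 p0 htr ?_ ?_ (exists_weight (ok := ok0) ?_)
    · rw [n1_0, ← hq]
      exact lt_trans hk (bound_lt_pow hq2)
    · rw [hc0]
      exact lt_trans hk (bound_lt_two hq2)
    · by_contra hc
      push Not at hc
      obtain ⟨g, hg⟩ := hR
      refine hg (eq_one_of_tops (st := step0) (S := sysE6) (by decide +kernel) ?_ g)
      intro r hr
      replace hr : r ∈ tabE6.tops := hr
      have : r = 71 := by revert hr; revert r; decide +kernel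
      subst this
      exact hc
  have d0 := deficiency_of_simple ok0 g0 p0 s0 (one_ne_zero (α := F))
  rw [mul_one, htr, n1_0] at d0
  have hT : (R (gx sysE6 71 1)).trace = (k : ℂ) - (q : ℂ) ^ 11 := by
    rw [← d0]; simp [show step0.root top0 = 71 from rfl]
  -- step 1
  have g1 := good_next ok0 g0 p0 sub0
  obtain ⟨p1, s1⟩ := step_link ok0 g0 p0 s0 (split := true) (Or.inl rfl) beta0 wit0 ok1 sub0
    rfl 4 (by rw [moved0, n1_1]; rfl) (by rw [n1_0, n1_1])
  have e0 := trace_eq_next ok0 g0 p0 s0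
  rw [htr, hc0] at e0
  have e1 := trace_eq_next ok1 g1 p1 s1
  have hc1 := card_cells (D := chevE6) (F := F) (st := step1)
  rw [lows1, ← hq] at hc1
  rw [hc1, trace_nextP ok1 p1] at e1
  rw [e1] at e0
  refine ⟨hT, fun h2 => ?_, fun h3 => ?_⟩
  · have e0' : (k : ℕ) = (mult p1 0 +
        (q - 1) * (([0, 1, 2, 3, 2, 3, 4, 4, 5, 6] : List ℕ).map fun e => q ^ e).sum) +
        (q - 1) * (([0, 1, 2, 3, 4, 3, 4, 5, 5, 6, 7, 6, 7, 8, 9, 10] : List ℕ).map
          fun e => q ^ e).sum := by exact_mod_cast e0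
    rw [h2] at e0'
    rw [e0']
    norm_num
  have g2 := good_next ok1 g1 p1 sub1
  obtain ⟨p2, s2⟩ := step_link ok1 g1 p1 s1 (split := false) (Or.inr h3) beta1 wit1 ok2 sub1
    rfl 3 (by rw [moved1, n1_2]; rfl) (by rw [n1_1, n1_2])
  have g3 := good_next ok2 g2 p2 sub2
  obtain ⟨p3, s3⟩ := step_link ok2 g2 p2 s2 (split := false) (Or.inr h3) beta2 wit2 ok3 sub2
    rfl 1 (by rw [moved2, n1_3]; rfl) (by rw [n1_2, n1_3])
  have g4 := good_next ok3 g3 p3 sub3
  obtain ⟨p4, s4⟩ := step_link ok3 g3 p3 s3 (split := false) (Or.inr h3) beta3 wit3 ok4 sub3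
    rfl 1 (by rw [moved3, n1_4]; rfl) (by rw [n1_3, n1_4])
  have g5 := good_next ok4 g4 p4 sub4
  obtain ⟨p5, s5⟩ := step_link ok4 g4 p4 s4 (split := false) (Or.inr h3) beta4 wit4 ok5 sub4
    rfl 1 (by rw [moved4, n1_5]; rfl) (by rw [n1_4, n1_5])
  have hc2 := card_cells (D := chevE6) (F := F) (st := step2)
  have hc3 := card_cells (D := chevE6) (F := F) (st := step3)
  have hc4 := card_cells (D := chevE6) (F := F) (st := step4)
  have hc5 := card_cells (D := chevE6) (F := F) (st := step5)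
  rw [lows2, ← hq] at hc2
  rw [lows3, ← hq] at hc3
  rw [lows4, ← hq] at hc4
  rw [lows5, ← hq] at hc5
  have f1 := trace_eq_next ok1 g1 p1 s1
  have f2 := trace_eq_next ok2 g2 p2 s2
  have f3 := trace_eq_next ok3 g3 p3 s3
  have f4 := trace_eq_next ok4 g4 p4 s4
  have f5 := trace_eq_next ok5 g5 p5 s5
  rw [hc2] at f2
  rw [hc3] at f3
  rw [hc4] at f4
  rw [hc5, trace_nextP ok5 p5] at f5
  have f0 := trace_eq_next ok0 g0 p0 s0
  rw [htr, hc0, f1, f2, f3, f4, f5, hc1] at f0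
  exact cells_total hq2 (m := mult p5 0) (by exact_mod_cast f0)

end CfsgLib.E6Deg
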