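import Cfsg.Agent.Chevalley.HighRoot

/-!
The number of conjugates of a highest root element, and the resulting divisibility for degrees.
-/

set_option autoImplicit false
set_option linter.unusedSectionVars false

open scoped Classical

noncomputable section

namespace CfsgLib.E6Deg

open Cfsg.Lie CfsgLib.Chevalley

variable {D : ChevalleyDatum} (S : Sys D) (F : Type*) [Field F]

/-- The centraliser of a highest root element. -/
def topCent : Subgroup (GL D.Idx F) :=
  D.group F ⊓ Subgroup.centralizer {S.xG F (topIdx D) 1}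

variable (hH : S.HighFacts) {lst : List ℕ} (hl : chkOrtho D lst = true) {J : List ℕ}
  (hJ : ∀ j < D.rank, (j ∈ J ↔ D.cartan j (topIdx D) = 0))

include hH hl in
theorem topCent_eq : topCent S F = Sys.centSub D F lst := S.centralizer_top F hH hl

include hH hl in
theorem pos_le_topCent : D.posUnipotent F ≤ topCent S F := by
  rw [topCent_eq S F hH hl]
  exact le_sup_left

include hH hl hJ in
theorem wN_mem_topCent (L : List (Fin D.rank)) (hL : ∀ i ∈ L, (i : ℕ) ∈ J) :
    ((S.wN F L : ↥(D.monomialSubgroup F)) : GL D.Idx F) ∈ topCent S F := by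
  induction L with
  | nil => simp [Sys.wN]
  | cons i L ih =>
    rw [List.forall_mem_cons] at hL
    rw [S.wN_cons, Subgroup.coe_mul]
    refine mul_mem ?_ (ih hL.2)
    show S.nG F (D.simple i) 1 ∈ _
    rw [topCent_eq S F hH hl, S.nG_eq]
    have hp : ∀ b : F, S.xG F (D.simple i) b ∈ Sys.centSub D F lst := fun b => Subgroup.mem_sup_left (by
      rw [← uSub_univ]
      exact S.xG_mem_uSub F (Set.mem_univ _) (S.simple_pos i i.isLt) (S.wf.simple_lt i i.isLt) b)
    exact mul_mem (mul_mem (hp _) (Subgroup.mem_sup_right (Subgroup.subset_closure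
      ⟨_, ((S.ortho_facts hl).1 i i.isLt).1.mpr ((hJ i i.isLt).1 hL.1), _, S.xG_val F _ _⟩))) (hp _)

include hH hl hJ in
/-- The stabiliser of the highest root in the Weyl group. -/
theorem stab_mem_wSet (n : ↥(D.monomialSubgroup F))
    (hfix : (S.perm F n ⟨topIdx D, hH.lt⟩ : ℕ) = topIdx D) : S.perm F n ∈ S.wSet J := by
  obtain ⟨hJ', -, -, hneg⟩ := S.ortho_facts hl
  suffices h : ∀ (k : ℕ) (n : ↥(D.monomialSubgroup F)), (invSet (S.perm F n)).card = k →
      (S.perm F n ⟨topIdx D, hH.lt⟩ : ℕ) = topIdx D → S.perm F n ∈ S.wSet J from h _ n rfl hfix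
  clear n hfix
  intro k
  induction k using Nat.strong_induction_on with
  | _ k ih =>
    intro n hk hfix
    obtain ⟨L, hL⟩ := S.exists_wperm F n
    by_cases hall : ∀ i : Fin D.rank, D.nroots / 2 ≤ (S.perm F n (S.simpleF i) : ℕ)
    · refine S.mem_wSet.mpr ⟨[], by simp, ?_⟩
      rw [hL, S.wperm_eq_one F L fun s hs =>
        S.keeps_sub (J := List.range D.rank) (U := L) (fun j _ => hL ▸ hall j)
          (fun m hm hmJ => absurd (List.mem_range.mpr hm) hmJ) hs]
      simp [Sys.wperm]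
    push Not at hall
    obtain ⟨i, hi⟩ := hall
    have hi0 : D.cartan i (topIdx D) = 0 := by
      by_contra hne
      have h1 := ((hJ' i i.isLt).2 hne).2
      have h2 := hneg _ hi
      have h3 := S.pairing_wperm L ⟨topIdx D, hH.lt⟩ (S.simpleF i)
      rw [← hL] at h3
      rw [hfix] at h3
      change D.pairing (topIdx D) _ = D.pairing (topIdx D) (D.simple i) at h3
      omega
    set m := n * S.nN F i with hm
    have hpm : S.perm F m = S.perm F n * S.srefl i := by rw [hm, map_mul, S.perm_nN]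
    have hcard : (invSet (S.perm F n)).card = (invSet (S.perm F m)).card + 1 := by
      have h := S.card_inv_mul_srefl (σ := S.perm F m) i (S.perm_negF F m) (by
        rw [hpm, Equiv.Perm.mul_apply, S.srefl_simple, S.perm_negF]
        exact S.root_lt_pos (Fin.isLt _) hi)
      rwa [hpm, mul_assoc, S.srefl_mul_self, mul_one, ← hpm] at h
    have hfix' : (S.perm F m ⟨topIdx D, hH.lt⟩ : ℕ) = topIdx D := by
      have e : S.srefl i ⟨topIdx D, hH.lt⟩ = ⟨topIdx D, hH.lt⟩ :=
        Fin.ext (S.w_fix i.isLt hH.lt hi0)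
      rw [hpm, Equiv.Perm.mul_apply, e, hfix]
    obtain ⟨M, hM, hMe⟩ := S.mem_wSet.mp (ih _ (by omega) m rfl hfix')
    refine S.mem_wSet.mpr ⟨M ++ [i], fun j hj => ?_, ?_⟩
    · rcases List.mem_append.1 hj with hj | hj
      · exact hM j hj
      · rw [List.mem_singleton] at hj
        exact hj ▸ (hJ i i.isLt).2 hi0
    · have e : S.wperm (M ++ [i]) = S.wperm M * S.srefl i := by simp [Sys.wperm]
      rw [e, ← hMe, hpm, mul_assoc, S.srefl_mul_self, mul_one]

include hH hl in
/-- The centraliser in the Borel subgroup. -/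
theorem natCard_borel_topCent [Fintype F] :
    Nat.card ↥(D.borelSubgroup F ⊓ topCent S F) = Fintype.card F ^ (D.nroots / 2) *
      Nat.card ↥(D.diagonalSubgroup F ⊓ topCent S F) := by
  have hU := pos_le_topCent S F hH hl
  let f : ↥(D.posUnipotent F) × ↥(D.diagonalSubgroup F ⊓ topCent S F) →
      ↥(D.borelSubgroup F ⊓ topCent S F) := fun x =>
    ⟨x.1 * x.2, mul_mem (Subgroup.mem_sup_left x.1.2) (Subgroup.mem_sup_right x.2.2.1),
      mul_mem (hU x.1.2) x.2.2.2⟩
  have hf : Function.Bijective f := by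
    refine ⟨?_, ?_⟩
    · rintro ⟨⟨u, hu⟩, ⟨h, hh⟩⟩ ⟨⟨v, hv⟩, ⟨k, hk⟩⟩ e
      have e' : u * h = v * k := congrArg Subtype.val e
      have h1 : v⁻¹ * u = k * h⁻¹ := by
        calc v⁻¹ * u = v⁻¹ * (u * h) * h⁻¹ := by group
          _ = _ := by rw [e']; group
      have hm2 : v⁻¹ * u ∈ D.diagonalSubgroup F := h1 ▸ mul_mem hk.1 (Subgroup.inv_mem _ hh.1)
      have h2 : v⁻¹ * u ∈ D.posUnipotent F ⊓ D.diagonalSubgroup F :=
        ⟨Subgroup.mul_mem _ (Subgroup.inv_mem _ hv) hu, hm2⟩
      rw [S.posUnipotent_inf_diagonal F, Subgroup.mem_bot, inv_mul_eq_one] at h2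
      subst h2
      simp only [mul_left_cancel e']
    · rintro ⟨g, hg, hgc⟩
      obtain ⟨u, hu, c, rfl⟩ := (S.mem_borel F).mp hg
      exact ⟨⟨⟨u, hu⟩, ⟨_, by rw [S.diagonal_eq]; exact ⟨c, rfl⟩,
        (mul_mem_cancel_left (hU hu)).1 hgc⟩⟩, rfl⟩
  rw [← Nat.card_congr (Equiv.ofBijective f hf), Nat.card_prod, ← uSub_univ,
    S.natCard_uSub F S.closed_univ, Finset.filter_true_of_mem fun r _ => Set.mem_univ r,
    Nat.card_Ico]
  congr 2
  have := S.even
  omega

include hH hl hJ in
/-- The order of the centraliser of a highest root element. -/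
theorem natCard_topCent [Fintype F] : (Nat.card ↥(topCent S F) : ℤ) =
    (Fintype.card F : ℤ) ^ (D.nroots / 2) * Nat.card ↥(D.diagonalSubgroup F ⊓ topCent S F) *
      S.lenSum J (Fintype.card F) := by
  set W := S.wSet J
  have hex : ∀ σ : W, ∃ n : ↥(D.monomialSubgroup F),
      S.perm F n = σ.1 ∧ (n : GL D.Idx F) ∈ topCent S F := by
    intro σ
    obtain ⟨L, hL, e⟩ := S.mem_wSet.mp σ.2
    exact ⟨S.wN F L, by rw [S.perm_wN, e], wN_mem_topCent S F hH hl hJ L hL⟩
  choose rep hrep hrepc using hex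
  have hU := pos_le_topCent S F hH hl
  let f : (Σ σ : W, ↥(D.borelSubgroup F ⊓ topCent S F) × ↥(uSub D F (S.flipSet F (rep σ)))) →
      ↥(topCent S F) := fun x => ⟨x.2.1 * (rep x.1 : GL D.Idx F) * x.2.2,
        mul_mem (mul_mem x.2.1.2.2 (hrepc x.1)) (hU (uSub_le_posUnipotent F _ x.2.2.2))⟩
  have huV : ∀ (n : ↥(D.monomialSubgroup F)) (u : GL D.Idx F),
      u ∈ uSub D F (S.flipSet F n) →
        (n : GL D.Idx F) * u * (n : GL D.Idx F)⁻¹ ∈ D.negUnipotent F := by
    intro n u hu
    refine closure_conj_mem ?_ hu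
    rintro x ⟨r, t, ⟨⟨hr, hr1⟩, -⟩, hx⟩
    obtain ⟨c, -, hct⟩ := S.conj_root F n ⟨r, hr⟩
    rw [S.eq_xG F hx, show S.xG F r t = S.xG F (⟨r, hr⟩ : Fin D.nroots) t from rfl, (hct t).1]
    exact S.xG_mem_negUnipotent F hr1 _
  have hf : Function.Bijective f := by
    refine ⟨?_, ?_⟩
    · rintro ⟨σ, ⟨b, hb⟩, ⟨u, hu⟩⟩ ⟨τ, ⟨b', hb'⟩, ⟨u', hu'⟩⟩ e
      have e' : b * (rep σ : GL D.Idx F) * u = b' * (rep τ : GL D.Idx F) * u' :=
        congrArg Subtype.val e
      have hH' := S.bruhat_unique F hb.1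
        (Subgroup.mem_sup_left (uSub_le_posUnipotent F _ hu)) hb'.1
        (Subgroup.mem_sup_left (uSub_le_posUnipotent F _ hu')) (rep σ).2 (rep τ).2 e'
      have hperm : S.perm F (rep σ) = S.perm F (rep τ) := (S.perm_eq_iff F).mpr hH'
      rw [hrep, hrep] at hperm
      obtain rfl : σ = τ := Subtype.ext hperm
      obtain ⟨rfl, rfl⟩ := S.normal_form_unique F hb.1 hb'.1 (huV _ u hu) (huV _ u' hu') e'
      rfl
    · rintro ⟨g, hg⟩
      obtain ⟨b, hb, n, u, hu, rfl⟩ := S.normal_form_exists F hg.1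
      -- the Weyl group part fixes the highest root
      have hcx := Subgroup.mem_centralizer_singleton_iff.mp hg.2
      have hfix : (S.perm F n ⟨topIdx D, hH.lt⟩ : ℕ) = topIdx D := by
        have hux := (S.top_commute_pos F hH (uSub_le_posUnipotent F _ hu) 1).eq
        obtain ⟨l, hl0, hl'⟩ := S.borel_conj_top F hH (inv_mem hb)
        obtain ⟨e, he0, he⟩ := S.conj_root F n ⟨topIdx D, hH.lt⟩
        refine S.top_of_xG_eq F hH (Fin.isLt _) (mul_ne_zero he0 one_ne_zero) (u := l * 1) ?_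
        calc S.xG F (S.perm F n ⟨topIdx D, hH.lt⟩ : ℕ) (e * 1)
            = n * S.xG F (topIdx D) 1 * (n : GL D.Idx F)⁻¹ := (he 1).1.symm
          _ = b⁻¹ * ((b * n * u) * S.xG F (topIdx D) 1 * (b * n * u)⁻¹) * b⁻¹⁻¹ := by
              rw [mul_assoc (b * n) u, ← hux]; group
          _ = _ := by rw [hcx, mul_inv_cancel_right, hl']
      let σ : W := ⟨S.perm F n, stab_mem_wSet S F hH hl hJ n hfix⟩
      have hset : S.flipSet F (rep σ) = S.flipSet F n := by
        simp only [Sys.flipSet, hrep]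
        rfl
      have hk : n * (rep σ)⁻¹ ∈ hSub D F := by
        rw [← S.ker_perm F, MonoidHom.mem_ker, map_mul, map_inv, hrep, mul_inv_cancel]
      rw [hSub, Subgroup.mem_subgroupOf] at hk
      set h : GL D.Idx F := ((n * (rep σ)⁻¹ : ↥(D.monomialSubgroup F)) : GL D.Idx F) with hh
      have hne : b * h * (rep σ : GL D.Idx F) * u = b * n * u := by
        rw [hh]; simp only [Subgroup.coe_mul, Subgroup.coe_inv]; group
      have hbc : b * h ∈ topCent S F := by
        have h1 : b * h * (rep σ : GL D.Idx F) * u ∈ topCent S F := hne ▸ hg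
        rwa [mul_mem_cancel_right (hU (uSub_le_posUnipotent F _ hu)),
          mul_mem_cancel_right (hrepc σ)] at h1
      exact ⟨⟨σ, ⟨b * h, mul_mem hb (Subgroup.mem_sup_right hk), hbc⟩, ⟨u, hset.symm ▸ hu⟩⟩,
        Subtype.ext hne⟩
  rw [← Nat.card_congr (Equiv.ofBijective f hf), Nat.card_sigma]
  simp only [Nat.card_prod, natCard_borel_topCent S F hH hl]
  rw [← Finset.mul_sum]
  push_cast
  congr 1
  rw [Sys.lenSum]
  refine Eq.trans ?_ (Finset.sum_coe_sort W fun σ => (Fintype.card F : ℤ) ^ (invSet σ).card)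
  refine Finset.sum_congr rfl fun σ _ => ?_
  rw [S.natCard_uSub F (S.closed_flipSet F _)]
  push_cast
  congr 1
  refine (Finset.card_bij (fun (s : Fin D.nroots) _ => (s : ℕ)) (fun s hs => ?_)
    (fun s _ t _ e => Fin.ext e) fun r hr => ?_).symm
  · rw [mem_invSet] at hs
    simp only [Finset.mem_filter, Finset.mem_Ico]
    exact ⟨⟨hs.1, s.isLt⟩, s.isLt, by simpa [hrep] using hs.2⟩
  · simp only [Finset.mem_filter, Finset.mem_Ico] at hr
    obtain ⟨h1, hlt, h2⟩ := hr
    exact ⟨⟨r, hlt⟩, mem_invSet.mpr ⟨h1.1, by simpa [hrep] using h2⟩, rfl⟩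

/-- The value of a character of the torus at a root. -/
def valHom (D : ChevalleyDatum) (F : Type*) [Field F] (s : ℕ) : (ℕ → Fˣ) →* Fˣ where
  toFun c := torusVal D c s
  map_one' := by simp [torusVal]
  map_mul' c d := by
    simp only [torusVal, Pi.mul_apply, ← Finset.prod_mul_distrib]
    exact Finset.prod_congr rfl fun j _ => mul_zpow _ _ _

include hH in
/-- The torus part has index `q - 1`. -/
theorem natCard_diagonal_split [Fintype F] {j₀ : ℕ} (hj₀ : j₀ < D.rank)
    (h1 : D.cartan j₀ (topIdx D) = 1) :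
    Nat.card ↥(D.diagonalSubgroup F) =
      (Fintype.card F - 1) * Nat.card ↥(D.diagonalSubgroup F ⊓ topCent S F) := by
  have hle : (tor D F).rangeRestrict.ker ≤ (valHom D F (topIdx D)).ker := fun c hc => by
    rw [MonoidHom.mem_ker] at hc ⊢
    have hc' : tor D F c = tor D F 1 := by rw [map_one]; exact congrArg Subtype.val hc
    have h := congrArg (fun g : GL D.Idx F => (g : Matrix D.Idx D.Idx F)) hc'
    simp only [S.tor_val] at h
    refine Units.ext ((dg_inj h hH.lt).trans ?_)
    simp [torusVal]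
  let χ : ↥(tor D F).range →* Fˣ :=
    (tor D F).rangeRestrict.liftOfSurjective (tor D F).rangeRestrict_surjective
      ⟨valHom D F (topIdx D), hle⟩
  have hχ : ∀ c, χ ((tor D F).rangeRestrict c) = torusVal D c (topIdx D) := fun c =>
    MonoidHom.liftOfRightInverse_comp_apply _ _ _ _ c
  have hsurj : Function.Surjective χ := fun a => by
    refine ⟨(tor D F).rangeRestrict (Pi.mulSingle j₀ a), (hχ _).trans ?_⟩
    rw [torusVal, Finset.prod_eq_single_of_mem j₀ (Finset.mem_range.mpr hj₀), Pi.mulSingle_eq_same,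
      h1, zpow_one]
    intro b _ hb
    rw [Pi.mulSingle_eq_of_ne hb, _root_.one_zpow]
  have hker : χ.ker.map (tor D F).range.subtype = D.diagonalSubgroup F ⊓ topCent S F := by
    ext g
    constructor
    · rintro ⟨⟨y, c, rfl⟩, hy, rfl⟩
      refine ⟨by rw [S.diagonal_eq]; exact ⟨c, rfl⟩, S.diagonal_le_group F
        (by rw [S.diagonal_eq]; exact ⟨c, rfl⟩), ?_⟩
      rw [SetLike.mem_coe, MonoidHom.mem_ker] at hy
      have hv : torusVal D c (topIdx D) = 1 := (hχ c).symm.trans hy
      refine Subgroup.mem_centralizer_singleton_iff.mpr ?_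
      have e := S.tor_conj F c hH.lt (1 : F)
      rw [hv, Units.val_one, one_mul, mul_inv_eq_iff_eq_mul] at e
      exact e
    · rintro ⟨hg, -, hgc⟩
      rw [S.diagonal_eq] at hg
      obtain ⟨c, rfl⟩ := hg
      refine ⟨(tor D F).rangeRestrict c, ?_, rfl⟩
      rw [SetLike.mem_coe, MonoidHom.mem_ker]
      refine (hχ c).trans (Units.ext ?_)
      refine S.torusVal_eq_one_of_commute F c hH.lt one_ne_zero ?_
      rw [Subgroup.mem_centralizer_singleton_iff.mp hgc, mul_inv_cancel_right]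
  have hq := Subgroup.card_eq_card_quotient_mul_card_subgroup χ.ker
  rw [Nat.card_congr (QuotientGroup.quotientKerEquivOfSurjective χ hsurj).toEquiv, Nat.card_units,
    Nat.card_eq_fintype_card (α := F)] at hq
  rw [← hker, Subgroup.card_map_of_injective (Subgroup.subtype_injective _), ← hq, S.diagonal_eq]

/-- The highest root element in the group. -/
def topElt : ↥(D.group F) :=
  if h : topIdx D < D.nroots then ⟨S.xG F (topIdx D) 1, S.xG_mem F h 1⟩ else 1

include hH in
theorem topElt_eq : (topElt S F : GL D.Idx F) = S.xG F (topIdx D) 1 := by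
  rw [topElt, dif_pos hH.lt]

variable [Fintype F] [Fintype ↥(D.group F)]

/-- The class of the highest root element. -/
def topClass : Finset ↥(D.group F) := Finset.univ.image fun g => g * topElt S F * g⁻¹

include hH in
theorem card_topClass : (topClass S F).card * Nat.card ↥(topCent S F) =
    Nat.card ↥(D.group F) := by
  let x := topElt S F
  have hx : (x : GL D.Idx F) = S.xG F (topIdx D) 1 := topElt_eq S F hH
  have h1 : Nat.card (MulAction.orbit (ConjAct ↥(D.group F)) x) *
      Nat.card (MulAction.stabilizer (ConjAct ↥(D.group F)) x) = Nat.card ↥(D.group F) := by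
    rw [← Nat.card_prod]
    exact Nat.card_congr ((MulAction.orbitProdStabilizerEquivGroup _ x).trans
      ConjAct.ofConjAct.toEquiv)
  have h2 : Nat.card (MulAction.orbit (ConjAct ↥(D.group F)) x) = (topClass S F).card := by
    rw [Nat.card_coe_set_eq, ← Set.ncard_coe_finset]
    congr 1
    ext y
    simp only [topClass, Finset.coe_image, Finset.coe_univ, Set.image_univ, Set.mem_range,
      MulAction.mem_orbit_iff]
    exact ⟨fun ⟨g, hg⟩ => ⟨ConjAct.ofConjAct g, hg⟩, fun ⟨g, hg⟩ => ⟨ConjAct.toConjAct g, hg⟩⟩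
  have h3 : Nat.card (MulAction.stabilizer (ConjAct ↥(D.group F)) x) = Nat.card ↥(topCent S F) := by
    refine Nat.card_congr
      { toFun := fun g => ⟨(ConjAct.ofConjAct g.1).1, (ConjAct.ofConjAct g.1).2, ?_⟩
        invFun := fun g => ⟨ConjAct.toConjAct ⟨g.1, g.2.1⟩, ?_⟩
        left_inv := fun g => rfl
        right_inv := fun g => rfl }
    · refine Subgroup.mem_centralizer_singleton_iff.mpr ?_
      have e := congrArg Subtype.val (MulAction.mem_stabilizer_iff.mp g.2)
      rw [ConjAct.smul_def, Subgroup.coe_mul, Subgroup.coe_mul, Subgroup.coe_inv, hx,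
        mul_inv_eq_iff_eq_mul] at e
      exact e
    · refine MulAction.mem_stabilizer_iff.mpr (Subtype.ext ?_)
      rw [ConjAct.smul_def, ConjAct.ofConjAct_toConjAct, Subgroup.coe_mul, Subgroup.coe_mul,
        Subgroup.coe_inv, hx, mul_inv_eq_iff_eq_mul]
      exact Subgroup.mem_centralizer_singleton_iff.mp g.2.2
  rw [← h2, ← h3, h1]

include hH hl hJ in
/-- The size of the class of a highest root element. -/
theorem card_topClass_lenSum {j₀ : ℕ} (hj₀ : j₀ < D.rank) (h1 : D.cartan j₀ (topIdx D) = 1) :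
    ((topClass S F).card : ℤ) * S.lenSum J (Fintype.card F) =
      ((Fintype.card F - 1 : ℕ) : ℤ) * S.lenSum (List.range D.rank) (Fintype.card F) := by
  have hq : (Fintype.card F : ℤ) ^ (D.nroots / 2) ≠ 0 :=
    pow_ne_zero _ (Nat.cast_ne_zero.2 Fintype.card_ne_zero)
  have hH1 : (Nat.card ↥(D.diagonalSubgroup F ⊓ topCent S F) : ℤ) ≠ 0 :=
    Nat.cast_ne_zero.2 Nat.card_pos.ne'
  have e := congrArg (Nat.cast : ℕ → ℤ) (card_topClass S F hH)
  rw [Nat.cast_mul, natCard_topCent S F hH hl hJ, S.natCard_group F,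
    natCard_diagonal_split S F hH hj₀ h1, Nat.cast_mul] at e
  refine mul_left_cancel₀ (mul_ne_zero hq hH1) ?_
  linear_combination e

variable {k : ℕ}

/-- The degree divides a multiple of the class size, if the value on the class is `k - m`. -/
theorem degree_dvd_class (R : ↥(D.group F) →* Matrix (Fin k) (Fin k) ℂ) (hk0 : k ≠ 0) {m : ℕ}
    (htr : (R (topElt S F)).trace = (k : ℂ) - (m : ℂ))
    (hschur : ∀ X, (∀ g, X * R g = R g * X) → ∃ c : ℂ, X = c • 1) :
    k ∣ (topClass S F).card * m := by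
  set T := topClass S F with hT
  set Z := ∑ p ∈ T, R p with hZ
  obtain ⟨c, hc⟩ := hschur Z (fun x => by
    rw [hZ, Finset.mul_sum, Finset.sum_mul]
    symm
    refine Finset.sum_nbij' (fun p => x * p * x⁻¹) (fun p => x⁻¹ * p * x) ?_ ?_ ?_ ?_ ?_
    · intro p hp
      obtain ⟨g, -, rfl⟩ := Finset.mem_image.1 hp
      exact Finset.mem_image.2 ⟨x * g, Finset.mem_univ _, by group⟩
    · intro p hp
      obtain ⟨g, -, rfl⟩ := Finset.mem_image.1 hp
      exact Finset.mem_image.2 ⟨x⁻¹ * g, Finset.mem_univ _, by group⟩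
    · intro p _; group
    · intro p _; group
    · intro p _
      rw [← map_mul, ← map_mul]
      congr 1
      group)
  have hclass : ∀ p ∈ T, (R p).trace = (k : ℂ) - (m : ℂ) := by
    intro p hp
    obtain ⟨g, -, rfl⟩ := Finset.mem_image.1 hp
    rw [map_mul, map_mul, Matrix.trace_mul_cycle, ← map_mul R g⁻¹ g, inv_mul_cancel, map_one,
      one_mul, htr]
  have hck : c * k = (T.card : ℂ) * ((k : ℂ) - (m : ℂ)) := by
    have h := congrArg Matrix.trace hc
    rw [hZ, Matrix.trace_sum, Finset.sum_congr rfl hclass, Finset.sum_const, nsmul_eq_mul,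
      Matrix.trace_smul, Matrix.trace_one, Fintype.card_fin, smul_eq_mul] at h
    exact h.symm
  have hint : IsIntegral ℤ c := by
    haveI : Nonempty (Fin k) := ⟨⟨0, by omega⟩⟩
    have hx : IsIntegral ℤ (∑ p ∈ T, MonoidAlgebra.single p (1 : ℤ)) := IsIntegral.of_finite ℤ _
    have h := hx.map (MonoidAlgebra.lift ℤ (Matrix (Fin k) (Fin k) ℂ) ↥(D.group F) R)
    rw [map_sum] at h
    simp only [MonoidAlgebra.lift_single, one_smul] at h
    rw [← hZ, hc, ← Algebra.algebraMap_eq_smul_one] at h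
    exact (isIntegral_algebraMap_iff (algebraMap ℂ (Matrix (Fin k) (Fin k) ℂ)).injective).1 h
  have hrat : c = algebraMap ℚ ℂ ((T.card : ℚ) * ((k : ℚ) - (m : ℚ)) / k) := by
    have hk0' : (k : ℂ) ≠ 0 := Nat.cast_ne_zero.2 hk0
    simp only [map_div₀, map_mul, map_sub, map_natCast]
    rw [eq_div_iff hk0', hck]
  obtain ⟨z, hz⟩ := IsIntegrallyClosed.isIntegral_iff.1
    ((isIntegral_algebraMap_iff (algebraMap ℚ ℂ).injective).1 (hrat ▸ hint))
  have hzk : z * (k : ℤ) = (T.card : ℤ) * ((k : ℤ) - (m : ℤ)) := by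
    have hk0' : (k : ℚ) ≠ 0 := Nat.cast_ne_zero.2 hk0
    rw [eq_div_iff hk0', eq_intCast] at hz
    exact_mod_cast hz
  rw [← Int.natCast_dvd_natCast]
  refine ⟨(T.card : ℤ) - z, ?_⟩
  push_cast
  linear_combination hzk

end CfsgLib.E6Deg
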