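import Cfsg.Agent.E6Deg.Chain
import Cfsg.Agent.E6Deg.RootClass
import Cfsg.Agent.E6Deg.Levels
import Cfsg.Agent.E6Deg.Arith

/-!
The minimal degree of a nontrivial irreducible representation of `E₆(q)`.
-/

set_option autoImplicit false
set_option linter.unusedSectionVars false

open scoped Classical

noncomputable section

namespace CfsgLib.E6Deg

open Cfsg.Lie CfsgLib.Chevalley

theorem highE6 : sysE6.HighFacts := by
  have hc : chkHigh chevE6 tabE6 = true := by decide +kernel
  simp only [chkHigh, Bool.and_eq_true, decide_eq_true_eq, List.all_eq_true, List.mem_range] at hc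
  exact ⟨hc.1.1.1, hc.1.1.2, hc.1.2, hc.2⟩

theorem orthoE6 : chkOrtho chevE6 [15, 29, 32, 34, 35] = true := by decide +kernel

variable {F : Type*} [Field F] [Fintype F] [Fintype ↥(chevE6.group F)]

/-- The size of the class of a long root element of `E₆(q)`. -/
theorem card_rootClass : (topClass sysE6 F).card =
    (Fintype.card F ^ 4 + 1) * (Fintype.card F ^ 6 + Fintype.card F ^ 3 + 1) *
      (Fintype.card F ^ 12 - 1) := by
  set q := Fintype.card F with hq
  have hq2 : 2 ≤ q := Fintype.one_lt_card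
  have e := card_topClass_lenSum sysE6 F highE6 orthoE6 (J := [0, 2, 3, 4, 5])
    (by decide +kernel) (j₀ := 1) (by decide +kernel) (by decide +kernel)
  rw [show List.range chevE6.rank = List.range 6 from rfl, lenSumE6 F, lenSumJ F, ← hq] at e
  simp only [levE60, levE61, levE62, levE63, levE64, levE65, levJ1, levJ2, levJ3, levJ4, levJ5,
    List.map_cons, List.map_nil, List.sum_cons, List.sum_nil] at e
  have h12 : 1 ≤ q ^ 12 := Nat.one_le_pow _ _ (by omega)
  zify [h12]
  push_cast [Nat.cast_sub (show 1 ≤ q by omega)] at e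
  refine mul_right_cancel₀ ?_ (e.trans ?_)
  · have : (0 : ℤ) < q := by exact_mod_cast (show 0 < q by omega)
    positivity
  · ring

omit [Fintype ↥(chevE6.group F)] in
/-- The bound. -/
theorem degree_bound {k : ℕ} (ρ : Representation ℂ (chevE6.group F) (Fin k → ℂ))
    (hρ : ρ.IsIrreducible) (hk2 : 2 ≤ k) :
    Fintype.card F * (Fintype.card F ^ 6 + Fintype.card F ^ 3 + 1) * (Fintype.card F ^ 4 + 1) ≤ k := by
  haveI : Fintype ↥(chevE6.group F) := Fintype.ofFinite _
  let R : ↥(chevE6.group F) →* Matrix (Fin k) (Fin k) ℂ :=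
    (LinearMap.toMatrixAlgEquiv' : Module.End ℂ (Fin k → ℂ) ≃ₐ[ℂ] Matrix (Fin k) (Fin k) ℂ).toMonoidHom.comp ρ
  haveI : Nonempty (Fin k) := ⟨⟨0, by omega⟩⟩
  haveI : IsSimpleOrder (Subrepresentation ρ) := hρ
  have hschur : ∀ X, (∀ g, X * R g = R g * X) → ∃ c : ℂ, X = c • 1 := by
    intro X hX
    let L : Module.End ℂ (Fin k → ℂ) := Matrix.toLinAlgEquiv' X
    have hL : ∀ g, L * ρ g = ρ g * L := fun g => by
      have e1 := congrArg (Matrix.toLinAlgEquiv' : Matrix (Fin k) (Fin k) ℂ ≃ₐ[ℂ] _) (hX g)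
      rw [map_mul, map_mul] at e1
      have e2 : (Matrix.toLinAlgEquiv' : Matrix (Fin k) (Fin k) ℂ ≃ₐ[ℂ] _) (R g) = ρ g :=
        Matrix.toLinAlgEquiv'_toMatrixAlgEquiv' _
      rwa [e2] at e1
    obtain ⟨c, hc⟩ := Module.End.exists_eigenvalue L
    have hinv : ∀ g, ∀ x ∈ L.eigenspace c, ρ g x ∈ L.eigenspace c := fun g x hx => by
      rw [Module.End.mem_eigenspace_iff] at hx ⊢
      have := LinearMap.congr_fun (hL g) x
      rw [Module.End.mul_apply, Module.End.mul_apply, hx, map_smul] at this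
      exact this
    rcases eq_bot_or_eq_top (⟨L.eigenspace c, fun g x hx => hinv g x hx⟩ : Subrepresentation ρ) with h | h
    · exact absurd (congrArg Subrepresentation.toSubmodule h) hc
    · refine ⟨c, ?_⟩
      have htop : L.eigenspace c = ⊤ := congrArg Subrepresentation.toSubmodule h
      apply (Matrix.toLinAlgEquiv' : Matrix (Fin k) (Fin k) ℂ ≃ₐ[ℂ] _).injective
      refine LinearMap.ext fun x => ?_
      show L x = _
      have hx : x ∈ L.eigenspace c := htop ▸ Submodule.mem_top
      rw [Module.End.mem_eigenspace_iff.1 hx, map_smul, map_one]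
      rfl
  have hR : ∃ g, R g ≠ 1 := by
    by_contra hc
    push Not at hc
    obtain ⟨c, hc'⟩ := hschur (Matrix.single ⟨0, by omega⟩ ⟨1, by omega⟩ 1)
      (fun g => by rw [hc g, mul_one, one_mul])
    have := congrFun (congrFun hc' ⟨0, by omega⟩) ⟨1, by omega⟩
    simp [Matrix.one_apply] at this
  by_contra hlt
  push Not at hlt
  obtain ⟨hT, h2, h3⟩ := chain R hR hlt
  have hx : topElt sysE6 F = gx sysE6 71 1 := Subtype.ext (topElt_eq sysE6 F highE6)
  have hdvd := degree_dvd_class sysE6 F R (by omega) (m := Fintype.card F ^ 11)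
    (by rw [hx, hT, Nat.cast_pow]) hschur
  rw [card_rootClass] at hdvd
  obtain ⟨p, hp⟩ := CharP.exists F
  obtain ⟨n, hn1, hn2⟩ := FiniteField.card F p
  exact no_degree ⟨p, n, hn1, hn2⟩ Fintype.one_lt_card hlt h2 h3 hdvd

end CfsgLib.E6Deg
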