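import Mathlib
import Cfsg.Agent.SlMinDegree.Weights

/-!
Weight projections of an abelian subgroup inside the range of a projection.
-/

set_option autoImplicit false
set_option linter.unusedSectionVars false

open scoped Classical

noncomputable section

namespace CfsgLib.E6Deg

open Matrix CfsgLib.SlMinDegree

variable {G : Type*} [Group G] {F : Type*} [Field F] [Fintype F] {ι : Type*} [Fintype ι] [DecidableEq ι]
  {k : ℕ}
variable (R : G →* Matrix (Fin k) (Fin k) ℂ) (u : Multiplicative (ι → F) →* G) (ψ : AddChar F ℂ)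
  (P : Matrix (Fin k) (Fin k) ℂ)

/-- The abelian subgroup acts through the projection. -/
structure ProjHyp : Prop where
  psi : ψ 1 ≠ 1
  idem : P * P = P
  comm : ∀ v, R (u v) * P = P * R (u v)

/-- The projection to the weight `φ`. -/
def proj (φ : ι → F) : Matrix (Fin k) (Fin k) ℂ :=
  (Fintype.card (ι → F) : ℂ)⁻¹ • ∑ v : ι → F, ψ (-(v ⬝ᵥ φ)) • (R (u (Multiplicative.ofAdd v)) * P)

variable {R u ψ P}

theorem card_ne_zero' : (Fintype.card (ι → F) : ℂ) ≠ 0 := Nat.cast_ne_zero.2 Fintype.card_ne_zero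

theorem sum_proj (h : ProjHyp R u ψ P) : ∑ φ : ι → F, proj R u ψ P φ = P := by
  simp only [proj]
  rw [← Finset.smul_sum, Finset.sum_comm]
  simp only [← Finset.sum_smul]
  have hs : ∀ v : ι → F, ∑ φ : ι → F, ψ (-(v ⬝ᵥ φ)) =
      if v = 0 then (Fintype.card (ι → F) : ℂ) else 0 := fun v => by
    rw [← sum_psi_dot h.psi v, ← Equiv.sum_comp (Equiv.neg (ι → F)) (fun w => ψ (v ⬝ᵥ w))]
    simp
  simp only [hs, ite_smul, zero_smul, Finset.sum_ite_eq', Finset.mem_univ, if_true]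
  rw [ofAdd_zero, map_one, map_one, one_mul, inv_smul_smul₀ card_ne_zero']

theorem R_u_mul_proj (v φ : ι → F) :
    R (u (Multiplicative.ofAdd v)) * proj R u ψ P φ = ψ (v ⬝ᵥ φ) • proj R u ψ P φ := by
  simp only [proj]
  rw [mul_smul_comm, smul_comm (ψ (v ⬝ᵥ φ)), Finset.mul_sum, Finset.smul_sum (r := ψ (v ⬝ᵥ φ))]
  congr 1
  conv_rhs => rw [← Equiv.sum_comp (Equiv.addLeft v)
    (fun x => ψ (v ⬝ᵥ φ) • ψ (-(x ⬝ᵥ φ)) • (R (u (Multiplicative.ofAdd x)) * P))]
  refine Finset.sum_congr rfl fun x _ => ?_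
  rw [Equiv.coe_addLeft, mul_smul_comm, ← mul_assoc, ← map_mul, ← map_mul, ← ofAdd_add, smul_smul,
    ← AddChar.map_add_eq_mul, add_dotProduct]
  congr 2
  ring

theorem P_mul_proj (h : ProjHyp R u ψ P) (φ : ι → F) : P * proj R u ψ P φ = proj R u ψ P φ := by
  simp only [proj]
  rw [mul_smul_comm, Finset.mul_sum]
  congr 1
  refine Finset.sum_congr rfl fun v _ => ?_
  rw [mul_smul_comm, ← mul_assoc, ← h.comm, mul_assoc, h.idem]

theorem proj_mul_proj (h : ProjHyp R u ψ P) (φ χ : ι → F) :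
    proj R u ψ P φ * proj R u ψ P χ = if φ = χ then proj R u ψ P χ else 0 := by
  nth_rewrite 1 [proj]
  rw [smul_mul_assoc, Finset.sum_mul]
  simp only [smul_mul_assoc, mul_assoc, P_mul_proj h, R_u_mul_proj, smul_smul, ← Finset.sum_smul]
  have hx : ∀ x : ι → F, ψ (-(x ⬝ᵥ φ)) * ψ (x ⬝ᵥ χ) = ψ ((χ - φ) ⬝ᵥ x) := fun x => by
    rw [← AddChar.map_add_eq_mul, sub_dotProduct, dotProduct_comm χ, dotProduct_comm φ]
    congr 1; ring
  simp only [hx, sum_psi_dot h.psi, sub_eq_zero, eq_comm (a := χ)]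
  split_ifs with h1
  · rw [inv_mul_cancel₀ card_ne_zero', one_smul]
  · simp

theorem proj_sq (h : ProjHyp R u ψ P) (φ : ι → F) :
    proj R u ψ P φ * proj R u ψ P φ = proj R u ψ P φ := by rw [proj_mul_proj h, if_pos rfl]

theorem R_u_mul_P (h : ProjHyp R u ψ P) (v : ι → F) :
    R (u (Multiplicative.ofAdd v)) * P = ∑ φ : ι → F, ψ (v ⬝ᵥ φ) • proj R u ψ P φ := by
  conv_lhs => rw [← sum_proj h, Finset.mul_sum]
  exact Finset.sum_congr rfl fun φ _ => R_u_mul_proj v φ

/-- The multiplicity of a weight. -/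
def mult (h : ProjHyp R u ψ P) (φ : ι → F) : ℕ :=
  (exists_natCast_trace (proj_sq h φ)).choose

theorem trace_proj (h : ProjHyp R u ψ P) (φ : ι → F) :
    (proj R u ψ P φ).trace = (mult h φ : ℂ) :=
  (exists_natCast_trace (proj_sq h φ)).choose_spec.1

theorem proj_eq_zero (h : ProjHyp R u ψ P) {φ : ι → F} (h0 : mult h φ = 0) : proj R u ψ P φ = 0 :=
  (exists_natCast_trace (proj_sq h φ)).choose_spec.2 h0

theorem sum_mult (h : ProjHyp R u ψ P) : ∑ φ : ι → F, (mult h φ : ℂ) = P.trace := by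
  rw [← congrArg Matrix.trace (sum_proj h), Matrix.trace_sum]
  exact Finset.sum_congr rfl fun φ _ => (trace_proj h φ).symm

theorem trace_R_u_mul_P (h : ProjHyp R u ψ P) (v : ι → F) :
    (R (u (Multiplicative.ofAdd v)) * P).trace = ∑ φ : ι → F, ψ (v ⬝ᵥ φ) * (mult h φ : ℂ) := by
  rw [R_u_mul_P h, Matrix.trace_sum]
  exact Finset.sum_congr rfl fun φ _ => by rw [Matrix.trace_smul, trace_proj h, smul_eq_mul]

/-- An element normalising the abelian subgroup, with its action `A` and the contragredient `B`. -/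
structure Moves (R : G →* Matrix (Fin k) (Fin k) ℂ) (u : Multiplicative (ι → F) →* G)
    (P : Matrix (Fin k) (Fin k) ℂ) (g : G) (B : (ι → F) → (ι → F)) : Prop where
  commP : R g * P = P * R g
  act : ∃ A : (ι → F) → (ι → F), Function.Bijective A ∧ (∀ v φ, A v ⬝ᵥ B φ = v ⬝ᵥ φ) ∧
    ∀ v, g * u (Multiplicative.ofAdd v) = u (Multiplicative.ofAdd (A v)) * g

theorem Moves.mul {g g' : G} {B B' : (ι → F) → (ι → F)} (hg : Moves R u P g B)
    (hg' : Moves R u P g' B') : Moves R u P (g * g') (B ∘ B') := by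
  obtain ⟨A, hA, hAB, hAu⟩ := hg.act
  obtain ⟨A', hA', hAB', hAu'⟩ := hg'.act
  refine ⟨by rw [map_mul, mul_assoc, hg'.commP, ← mul_assoc, hg.commP, mul_assoc],
    A ∘ A', hA.comp hA', fun v φ => by simp only [Function.comp_apply, hAB, hAB'], fun v => ?_⟩
  rw [mul_assoc, hAu', ← mul_assoc, hAu, mul_assoc]
  rfl

theorem Moves.one : Moves R u P 1 id :=
  ⟨by rw [map_one, one_mul, mul_one], id, Function.bijective_id, fun _ _ => rfl,
    fun v => by rw [one_mul, mul_one]; rfl⟩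

theorem Moves.R_mul_proj {g : G} {B : (ι → F) → (ι → F)} (hg : Moves R u P g B) (φ : ι → F) :
    R g * proj R u ψ P φ = proj R u ψ P (B φ) * R g := by
  obtain ⟨A, hA, hAB, hAu⟩ := hg.act
  simp only [proj]
  rw [mul_smul_comm, smul_mul_assoc, Finset.mul_sum, Finset.sum_mul]
  congr 1
  conv_rhs => rw [← Equiv.sum_comp (Equiv.ofBijective A hA)]
  refine Finset.sum_congr rfl fun v _ => ?_
  rw [Equiv.ofBijective_apply, mul_smul_comm, smul_mul_assoc, hAB, ← mul_assoc, ← map_mul, hAu,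
    map_mul, mul_assoc, mul_assoc, hg.commP]

theorem Moves.trace_proj_mul {g : G} {B : (ι → F) → (ι → F)} (hg : Moves R u P g B) {y z : G}
    (hy : g * y = z * g) (φ : ι → F) :
    (R z * proj R u ψ P (B φ)).trace = (R y * proj R u ψ P φ).trace := by
  have hgg : R g⁻¹ * R g = 1 := by rw [← map_mul, inv_mul_cancel, map_one]
  have hgg' : R g * R g⁻¹ = 1 := by rw [← map_mul, mul_inv_cancel, map_one]
  have e : R z * proj R u ψ P (B φ) = R g * (R y * proj R u ψ P φ) * R g⁻¹ := by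
    rw [← mul_assoc (R g), ← map_mul, hy, map_mul, mul_assoc (R z), hg.R_mul_proj,
      mul_assoc (R z), mul_assoc (proj R u ψ P (B φ)), hgg', mul_one]
  rw [e, Matrix.trace_mul_comm, ← mul_assoc, hgg, one_mul]

theorem Moves.mult_eq (h : ProjHyp R u ψ P) {g : G} {B : (ι → F) → (ι → F)}
    (hg : Moves R u P g B) (φ : ι → F) : mult h (B φ) = mult h φ := by
  have e := hg.trace_proj_mul (ψ := ψ) (y := 1) (z := 1) (by rw [mul_one, one_mul]) φ
  rw [map_one, one_mul, one_mul, trace_proj h, trace_proj h] at e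
  exact_mod_cast e

theorem Moves.trace_eq_zero (h : ProjHyp R u ψ P) {g : G} {B : (ι → F) → (ι → F)}
    (hg : Moves R u P g B) {φ : ι → F} (hne : B φ ≠ φ) :
    (R g * proj R u ψ P φ).trace = 0 := by
  rw [← proj_sq h φ, ← mul_assoc, Matrix.trace_mul_comm, hg.R_mul_proj, ← mul_assoc,
    proj_mul_proj h, if_neg (Ne.symm hne), zero_mul, Matrix.trace_zero]

/-- The character of the stabiliser of a weight of multiplicity one. -/
def lam (R : G →* Matrix (Fin k) (Fin k) ℂ) (u : Multiplicative (ι → F) →* G) (ψ : AddChar F ℂ)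
    (P : Matrix (Fin k) (Fin k) ℂ) (φ : ι → F) (g : G) : ℂ := (R g * proj R u ψ P φ).trace

theorem R_mul_proj_of_fix (h : ProjHyp R u ψ P) {φ : ι → F} (hm : mult h φ = 1) {g : G}
    {B : (ι → F) → (ι → F)} (hg : Moves R u P g B) (hfix : B φ = φ) :
    R g * proj R u ψ P φ = lam R u ψ P φ g • proj R u ψ P φ := by
  have e := mul_mul_of_trace_one (proj_sq h φ) (by rw [trace_proj h, hm, Nat.cast_one]) (R g)
  have hc : R g * proj R u ψ P φ = proj R u ψ P φ * R g := by rw [hg.R_mul_proj, hfix]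
  rw [mul_assoc, hc, ← mul_assoc, proj_sq h, ← hc] at e
  exact e

theorem lam_mul (h : ProjHyp R u ψ P) {φ : ι → F} (hm : mult h φ = 1) {g g' : G}
    {B' : (ι → F) → (ι → F)} (hg' : Moves R u P g' B') (hfix : B' φ = φ) :
    lam R u ψ P φ (g * g') = lam R u ψ P φ g * lam R u ψ P φ g' := by
  calc lam R u ψ P φ (g * g')
      = (R g * (R g' * proj R u ψ P φ)).trace := by rw [lam, map_mul, mul_assoc]
    _ = (R g * (lam R u ψ P φ g' • proj R u ψ P φ)).trace := by
        rw [← R_mul_proj_of_fix h hm hg' hfix]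
    _ = lam R u ψ P φ g * lam R u ψ P φ g' := by
        rw [mul_smul_comm, Matrix.trace_smul, smul_eq_mul, mul_comm]
        rfl

theorem lam_one (h : ProjHyp R u ψ P) {φ : ι → F} (hm : mult h φ = 1) :
    lam R u ψ P φ 1 = 1 := by
  rw [lam, map_one, one_mul, trace_proj h, hm, Nat.cast_one]

theorem lam_ne_zero (h : ProjHyp R u ψ P) {φ : ι → F} (hm : mult h φ = 1) {g : G}
    {B : (ι → F) → (ι → F)} (hg : Moves R u P g B) (hfix : B φ = φ) :
    lam R u ψ P φ g ≠ 0 := by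
  intro h0
  have h1 := lam_mul h hm (g := g⁻¹) hg hfix
  rw [inv_mul_cancel, lam_one h hm, h0, mul_zero] at h1
  exact one_ne_zero h1

theorem lam_eq_one_of_comm (h : ProjHyp R u ψ P) {φ : ι → F} (hm : mult h φ = 1) {x y z : G}
    {Bx By Bz : (ι → F) → (ι → F)} (hx : Moves R u P x Bx) (hy : Moves R u P y By)
    (hz : Moves R u P z Bz) (fx : Bx φ = φ) (fy : By φ = φ) (fz : Bz φ = φ)
    (he : x * y = y * x * z) : lam R u ψ P φ z = 1 := by
  have h1 := lam_mul h hm (g := x) hy fy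
  have h2 := lam_mul h hm (g := y * x) hz fz
  rw [← he, h1, lam_mul h hm hx fx, mul_comm (lam R u ψ P φ x)] at h2
  exact (mul_eq_left₀ (mul_ne_zero (lam_ne_zero h hm hy fy) (lam_ne_zero h hm hx fx))).1 h2.symm

theorem lam_eq_of_scale (h : ProjHyp R u ψ P) {φ : ι → F} (hm : mult h φ = 1) {g x x' : G}
    {B Bx : (ι → F) → (ι → F)} (hg : Moves R u P g B) (hx : Moves R u P x Bx)
    (fg : B φ = φ) (fx : Bx φ = φ) (he : g * x = x' * g) :
    lam R u ψ P φ x' = lam R u ψ P φ x := by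
  have h1 := lam_mul h hm (g := g) hx fx
  have h2 := lam_mul h hm (g := x') hg fg
  rw [← he, h1, mul_comm] at h2
  exact (mul_right_cancel₀ (lam_ne_zero h hm hg fg) h2).symm

end CfsgLib.E6Deg
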